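import Mathlib

/-!
# Symplectic groups in characteristic two: the elements fixing a vector and acting trivially on its perp modulo it

`gel B P u x` is the isometry `v ↦ v + B v P • u + (B v u + x * B v P) • P` of the alternating form `B`, for
`B u P = 0`.  For fixed `P` these form the largest normal 2-subgroup of the stabiliser of `P`; those with `u = 0`
are the transvections with centre `P`.
-/

set_option autoImplicit false
set_option linter.unusedSectionVars false
set_option linter.unusedVariables false

namespace Cfsg.Agent.H5.Sp2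

variable {F : Type*} [Field F] [CharP F 2] {V : Type*} [AddCommGroup V] [Module F V]

/-- A non-degenerate alternating form. -/
structure IsSp (B : V →ₗ[F] V →ₗ[F] F) : Prop where
  alt : ∀ v, B v v = 0
  nd : ∀ v, (∀ w, B v w = 0) → v = 0

variable {B : V →ₗ[F] V →ₗ[F] F}

include F in
theorem add_self_V (x : V) : x + x = 0 := by
  rw [← two_smul F x, CharTwo.two_eq_zero, zero_smul]

theorem IsSp.symm (hB : IsSp B) (u v : V) : B u v = B v u := by
  have h := hB.alt (u + v)
  simp only [map_add, LinearMap.add_apply, hB.alt, zero_add, add_zero] at h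
  exact (CharTwo.add_eq_zero.1 h).symm

/-- Elements of the field are squares. -/
theorem exists_sq [Finite F] (x : F) : ∃ y : F, y * y = x := by
  haveI : Fintype F := Fintype.ofFinite F
  obtain ⟨y, hy⟩ := FiniteField.isSquare_of_char_two (ringChar.eq F 2) x
  exact ⟨y, hy.symm⟩

variable (B) in
/-- The underlying map. -/
def gelLin (P u : V) (x : F) : V →ₗ[F] V :=
  LinearMap.id + (B.flip P).smulRight u + (B.flip u + x • B.flip P).smulRight P

theorem gelLin_apply (P u : V) (x : F) (v : V) :
    gelLin B P u x v = v + B v P • u + (B v u + x * B v P) • P := by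
  simp [gelLin]

open scoped Classical in
variable (B) in
/-- The element `v ↦ v + B v P • u + (B v u + x * B v P) • P`. -/
noncomputable def gel (P u : V) (x : F) : V ≃ₗ[F] V :=
  if h : Function.Involutive (gelLin B P u x) then LinearEquiv.ofInvolutive (gelLin B P u x) h else 1

theorem gelLin_involutive (hB : IsSp B) {P u : V} (h : B u P = 0) (x : F) :
    Function.Involutive (gelLin B P u x) := by
  intro v
  have h' : B P u = 0 := by rw [hB.symm, h]
  simp only [gelLin_apply, map_add, map_smul, LinearMap.add_apply, LinearMap.smul_apply, hB.alt, h, h',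
    smul_eq_mul, mul_zero, add_zero]
  linear_combination (norm := module)
    (B v P) • add_self_V (F := F) u + (B v u + x * B v P) • add_self_V (F := F) P

theorem gel_apply (hB : IsSp B) {P u : V} (h : B u P = 0) (x : F) (v : V) :
    gel B P u x v = v + B v P • u + (B v u + x * B v P) • P := by
  rw [gel, dif_pos (gelLin_involutive hB h x), LinearEquiv.coe_ofInvolutive, gelLin_apply]

/-- The transvection with centre `P`. -/
theorem gel_zero_apply (hB : IsSp B) (P : V) (x : F) (v : V) :
    gel B P 0 x v = v + (x * B v P) • P := by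
  rw [gel_apply hB (by simp)]
  simp

theorem gel_iso (hB : IsSp B) {P u : V} (h : B u P = 0) (x : F) (v w : V) :
    B (gel B P u x v) (gel B P u x w) = B v w := by
  have h' : B P u = 0 := by rw [hB.symm, h]
  simp only [gel_apply hB h, map_add, map_smul, LinearMap.add_apply, LinearMap.smul_apply, hB.alt, h, h',
    smul_eq_mul, hB.symm u w, hB.symm P w]
  linear_combination (B w u * B v P + B v u * B w P + x * B v P * B w P) * CharTwo.two_eq_zero (R := F)

theorem gel_mul (hB : IsSp B) {P u w : V} (hu : B u P = 0) (hw : B w P = 0) (x y : F) :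
    gel B P u x * gel B P w y = gel B P (u + w) (x + y + B u w) := by
  refine LinearEquiv.ext fun v => ?_
  have hu' : B P u = 0 := by rw [hB.symm, hu]
  rw [LinearEquiv.mul_apply, gel_apply hB hw, gel_apply hB hu,
    gel_apply hB (by rw [map_add, LinearMap.add_apply, hu, hw, add_zero])]
  simp only [map_add, map_smul, LinearMap.add_apply, LinearMap.smul_apply, hw, hu', hB.alt, smul_eq_mul,
    hB.symm w u]
  module

theorem gel_zero (hB : IsSp B) (P : V) : gel B P 0 0 = 1 :=
  LinearEquiv.ext fun v => by rw [gel_zero_apply hB]; simp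

theorem gel_inv (hB : IsSp B) {P u : V} (h : B u P = 0) (x : F) : (gel B P u x)⁻¹ = gel B P u x := by
  refine inv_eq_of_mul_eq_one_right ?_
  rw [gel_mul hB h h, hB.alt, add_zero, add_self_V (F := F), CharTwo.add_self_eq_zero, gel_zero hB]

theorem gel_conj (hB : IsSp B) (g : V ≃ₗ[F] V) (hg : ∀ v w, B (g v) (g w) = B v w) {P u : V} (h : B u P = 0)
    (x : F) : g * gel B P u x * g⁻¹ = gel B (g P) (g u) x := by
  refine LinearEquiv.ext fun v => ?_
  obtain ⟨y, rfl⟩ : ∃ y, g y = v := g.surjective v
  rw [LinearEquiv.mul_apply, LinearEquiv.mul_apply, show (g⁻¹ : V ≃ₗ[F] V) (g y) = y from g.symm_apply_apply y,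
    gel_apply hB h, gel_apply hB (by rwa [hg])]
  simp only [map_add, map_smul, hg]

theorem gel_smul (hB : IsSp B) {P u : V} (h : B u P = 0) (μ x : F) :
    gel B (μ • P) u x = gel B P (μ • u) (μ * μ * x) := by
  refine LinearEquiv.ext fun v => ?_
  rw [gel_apply hB (by rw [map_smul, h, smul_zero]), gel_apply hB (by simp [h])]
  simp only [map_smul, smul_eq_mul]
  module

theorem gel_shift (hB : IsSp B) {P u : V} (h : B u P = 0) (t x : F) :
    gel B P (u + t • P) x = gel B P u x := by
  refine LinearEquiv.ext fun v => ?_
  rw [gel_apply hB (by simp [h, hB.alt]), gel_apply hB h]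
  simp only [map_add, map_smul, smul_eq_mul]
  linear_combination (norm := module) (t * B v P) • add_self_V (F := F) P

theorem gel_swap (hB : IsSp B) {P u : V} (h : B u P = 0) : gel B P u 0 = gel B u P 0 := by
  refine LinearEquiv.ext fun v => ?_
  rw [gel_apply hB h, gel_apply hB (by rw [hB.symm, h])]
  simp only [zero_mul, add_zero]
  abel

theorem gel_fix (hB : IsSp B) {P u : V} (h : B u P = 0) (x : F) : gel B P u x P = P := by
  rw [gel_apply hB h, hB.alt, hB.symm P u, h]
  simp

theorem exists_dual [FiniteDimensional F V] (hB : IsSp B) (φ : V →ₗ[F] F) : ∃ u, ∀ z, B z u = φ z := by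
  have hinj : Function.Injective B.flip := fun a b hab => by
    refine sub_eq_zero.1 (hB.nd _ fun w => ?_)
    rw [hB.symm, map_sub, sub_eq_zero]
    exact LinearMap.congr_fun hab w
  obtain ⟨u, hu⟩ := (LinearMap.injective_iff_surjective_of_finrank_eq_finrank
    (f := B.flip) (Subspace.dual_finrank_eq).symm).1 hinj φ
  exact ⟨u, fun z => by rw [← hu]; rfl⟩

theorem exists_pair_one (hB : IsSp B) {v : V} (hv : v ≠ 0) : ∃ z, B z v = 1 := by
  obtain ⟨w, hw⟩ : ∃ w, B v w ≠ 0 := by
    by_contra h
    push Not at h
    exact hv (hB.nd v h)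
  exact ⟨(B v w)⁻¹ • w, by rw [map_smul, LinearMap.smul_apply, hB.symm w v, smul_eq_mul, inv_mul_cancel₀ hw]⟩

end Cfsg.Agent.H5.Sp2
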