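import Cfsg.Agent.H5.Sp2.Form
import Cfsg.Agent.H5.EichlerGroup

/-!
# The group lies between the orthogonal group and its subgroup of index two
-/

set_option autoImplicit false
set_option linter.unusedSectionVars false
set_option linter.unusedVariables false

namespace Cfsg.Agent.H5.Sp2

open QuadraticMap
open Cfsg.Agent.H5

variable {F : Type*} [Field F] [CharP F 2] [Finite F] {V : Type*} [AddCommGroup V] [Module F V]
  [FiniteDimensional F V] [Finite V]
variable {B : V →ₗ[F] V →ₗ[F] F} {L : Subgroup (V ≃ₗ[F] V)} {a b : V}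

namespace Frame

variable (K : Frame B L a b) (hN : NoThird B L a)
include K hN

theorem nondeg : (polarBilin (K.quad hN)).Nondegenerate := by
  constructor <;> intro x hx <;> refine K.sp.nd x fun w => ?_
  · rw [← K.polar_quad hN]; exact hx w
  · rw [← K.polar_quad hN, polar_comm]; exact hx w

theorem hypPair : HypPair (K.quad hN) a b :=
  ⟨K.quad_a hN, K.quad_b hN, by rw [K.polar_quad hN, K.pair]⟩

theorem eich_left {u : V} (hu : u ∈ pperp (K.quad hN) a b) :
    ((eich (K.quad hN) a u : orth (K.quad hN)) : V ≃ₗ[F] V) = gel B a u (cc B L a u) ∧ B u a = 0 ∧ B u b = 0 := by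
  rw [mem_pperp, K.polar_quad hN, K.polar_quad hN] at hu
  have hua : B u a = 0 := by rw [K.sp.symm]; exact hu.1
  have hub : B u b = 0 := by rw [K.sp.symm]; exact hu.2
  refine ⟨LinearEquiv.ext fun x => ?_, hua, hub⟩
  rw [eich_apply (K.quad_a hN) (by rw [K.polar_quad hN]; exact hu.1), gel_apply K.sp hua,
    K.polar_quad hN, K.polar_quad hN, K.sp.symm a x, K.sp.symm u x, K.quad_perp hN hua hub]
  linear_combination (norm := module) -(B x u + cc B L a u * B x a) • add_self_V (F := F) a

theorem eich_right {u : V} (hu : u ∈ pperp (K.quad hN) a b) :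
    ((eich (K.quad hN) b u : orth (K.quad hN)) : V ≃ₗ[F] V) = gel B b u (cc B L b u) := by
  rw [mem_pperp, K.polar_quad hN, K.polar_quad hN] at hu
  have hua : B u a = 0 := by rw [K.sp.symm]; exact hu.1
  have hub : B u b = 0 := by rw [K.sp.symm]; exact hu.2
  refine LinearEquiv.ext fun x => ?_
  rw [eich_apply (K.quad_b hN) (by rw [K.polar_quad hN]; exact hu.2), gel_apply K.sp hub,
    K.polar_quad hN, K.polar_quad hN, K.sp.symm b x, K.sp.symm u x, K.quad_perp hN hua hub,
    (K.scalar_form hN hua hub).1]
  linear_combination (norm := module) -(B x u + cc B L a u * B x b) • add_self_V (F := F) b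

theorem le_orth : L ≤ orth (K.quad hN) := fun g hg => mem_orth.2 (K.quad_inv hN hg)

theorem eichGroup_le (hdim : 3 ≤ Module.finrank F V) :
    eichGroup (K.quad hN) ≤ L.subgroupOf (orth (K.quad hN)) := by
  refine eichGroup_le_of_root_groups (K.nondeg hN) hdim (K.hypPair hN) (fun u hu => ?_) fun u hu => ?_
  · obtain ⟨e, hua, -⟩ := K.eich_left hN hu
    rw [Subgroup.mem_subgroupOf, e]
    exact K.left.cc_spec hua
  · obtain ⟨-, -, hub⟩ := K.eich_left hN hu
    rw [Subgroup.mem_subgroupOf, K.eich_right hN hu]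
    exact K.right.cc_spec hub

theorem exists_anisotropic (hdim : 4 ≤ Module.finrank F V) :
    ∃ w u, B w a = 0 ∧ B w b = 0 ∧ B u a = 0 ∧ B u b = 0 ∧ B u w = 1 ∧ K.quad hN w ≠ 0 := by
  obtain ⟨z, hza, hzb, hz⟩ := K.exists_perp_vec hdim
  obtain ⟨u, hua, hub, huz⟩ := K.exists_one hza hzb hz
  by_cases h : K.quad hN z ≠ 0
  · exact ⟨z, u, hza, hzb, hua, hub, huz, h⟩
  by_cases h' : K.quad hN u ≠ 0
  · exact ⟨u, z, hua, hub, hza, hzb, by rw [K.sp.symm, huz], h'⟩
  push Not at h h'
  refine ⟨u + z, z, by simp [hua, hza], by simp [hub, hzb], hza, hzb, ?_, ?_⟩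
  · rw [map_add, K.sp.symm z u, huz, K.sp.alt, add_zero]
  · rw [QuadraticMap.map_add (⇑(K.quad hN)), h', h, K.polar_quad hN, huz, zero_add, zero_add]
    exact one_ne_zero

/-- Outside the four dimensional space over two elements, `L` is the orthogonal group or `Ω`. -/
theorem eq_omega_or_top (hdim : 4 ≤ Module.finrank F V) (hex : Nat.card F ≠ 2 ∨ Module.finrank F V ≠ 4) :
    L.subgroupOf (orth (K.quad hN)) = commutator (orth (K.quad hN)) ∨
      L.subgroupOf (orth (K.quad hN)) = ⊤ := by
  have hle := K.eichGroup_le hN (by omega)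
  rw [← commutator_eq_eichGroup (K.nondeg hN) hdim hex] at hle
  obtain ⟨w, -, -, -, -, -, -, hw⟩ := K.exists_anisotropic hN hdim
  have hidx := commutator_index_two (CharTwo.two_eq_zero) (K.nondeg hN) hex ⟨w, hw⟩
  have hdvd := Subgroup.index_dvd_of_le hle
  rw [hidx, Nat.dvd_prime Nat.prime_two] at hdvd
  rcases hdvd with h | h
  · exact Or.inr (Subgroup.index_eq_one.1 h)
  · refine Or.inl (le_antisymm ?_ hle)
    have e := Subgroup.relIndex_mul_index hle
    rw [h, hidx] at e
    exact Subgroup.relIndex_eq_one.1 (by omega)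

/-! ### The four dimensional space over two elements -/

section Small

variable (h2 : Nat.card F = 2) (hdim : Module.finrank F V = 4)
include h2 hdim

theorem refl_eq_one_iff {w : V} (hw : K.quad hN w ≠ 0) : K.quad hN w = 1 :=
  (eq_zero_or_one h2 _).resolve_left hw

/-- The products of two reflections in the vectors orthogonal to the pair are in the Eichler group. -/
theorem refl_refl_mem {v w : V} (hva : B v a = 0) (hvb : B v b = 0) (hv : K.quad hN v ≠ 0)
    (hwa : B w a = 0) (hwb : B w b = 0) (hw : K.quad hN w ≠ 0) :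
    refl (K.quad hN) v * refl (K.quad hN) w ∈ eichGroup (K.quad hN) := by
  have hB := K.sp
  let μ : V → orth (K.quad hN) := fun w =>
    eich (K.quad hN) b w * eich (K.quad hN) a w * eich (K.quad hN) b w
  have key : ∀ w, B w a = 0 → B w b = 0 → K.quad hN w ≠ 0 → ∀ x : V,
      ((μ w : orth (K.quad hN)) : V ≃ₗ[F] V) x =
        (refl (K.quad hN) w : V ≃ₗ[F] V) x + (B x a + B x b) • (a + b) := by
    intro w hwa hwb hw x
    have h1 := K.refl_eq_one_iff hN h2 hdim hw
    have haw : B a w = 0 := by rw [hB.symm, hwa]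
    have hbw : B b w = 0 := by rw [hB.symm, hwb]
    have hmem : w ∈ pperp (K.quad hN) a b := by
      rw [mem_pperp, K.polar_quad hN, K.polar_quad hN]; exact ⟨haw, hbw⟩
    have hca : cc B L a w = 1 := by rw [← K.quad_perp hN hwa hwb, h1]
    have hcb : cc B L b w = 1 := by rw [(K.scalar_form hN hwa hwb).1, hca]
    have h4 : (4 : F) = 0 := by linear_combination 2 * CharTwo.two_eq_zero (R := F)
    have h3 : (3 : F) = 1 := by linear_combination CharTwo.two_eq_zero (R := F)
    simp only [μ, orth_mul_apply, (K.eich_left hN hmem).1, K.eich_right hN hmem, hca, hcb, gel_apply hB hwa,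
      gel_apply hB hwb, refl_apply, h1, K.polar_quad hN, hB.symm w x, inv_one, one_mul, map_add, map_smul,
      LinearMap.add_apply, LinearMap.smul_apply, smul_eq_mul, K.pair, K.pair', hB.alt, haw, hbw, hwa, hwb,
      mul_zero, mul_one, add_zero, zero_add]
    match_scalars <;> try rfl
    all_goals
      (ring_nf; simp [CharTwo.two_eq_zero, CharTwo.sub_eq_add, CharTwo.neg_eq, h4, h3]; try ring)
  have hprod : μ v * μ w = refl (K.quad hN) v * refl (K.quad hN) w := by
    refine orth_ext fun x => ?_
    have hh : ∀ {w : V}, B w a = 0 → B w b = 0 → ∀ x, B ((refl (K.quad hN) w : V ≃ₗ[F] V) x) a = B x a ∧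
        B ((refl (K.quad hN) w : V ≃ₗ[F] V) x) b = B x b := fun {w} h h' x => by
      rw [refl_apply]; simp [h, h']
    have hab : ∀ {w : V}, B w a = 0 → B w b = 0 → (refl (K.quad hN) w : V ≃ₗ[F] V) (a + b) = a + b :=
      fun {w} h h' => refl_apply_of_ortho (by rw [K.polar_quad hN, map_add, h, h', add_zero])
    rw [orth_mul_apply (μ v) (μ w), orth_mul_apply (refl (K.quad hN) v) (refl (K.quad hN) w), key w hwa hwb hw, map_add, map_smul, key v hva hvb hv,
      key v hva hvb hv (a + b), hab hva hvb]
    simp only [map_add, map_smul, LinearMap.add_apply, (hh hwa hwb x).1, (hh hwa hwb x).2, hB.alt, K.pair,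
      K.pair', zero_add, add_zero, CharTwo.add_self_eq_zero, zero_smul]
    linear_combination (norm := module)
      (B x a + B x b) • add_self_V (F := F) a + (B x a + B x b) • add_self_V (F := F) b
  have hm : ∀ w, μ w ∈ eichGroup (K.quad hN) := fun w =>
    mul_mem (mul_mem (eich_mem_eichGroup _ _) (eich_mem_eichGroup _ _)) (eich_mem_eichGroup _ _)
  rw [← hprod]
  exact mul_mem (hm v) (hm w)

/-- Every isometry is in the Eichler group or its coset of a reflection. -/
theorem mem_eich_or {w : V} (hwa : B w a = 0) (hwb : B w b = 0) (hw : K.quad hN w ≠ 0) (g : orth (K.quad hN)) :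
    g ∈ eichGroup (K.quad hN) ∨ g * refl (K.quad hN) w ∈ eichGroup (K.quad hN) := by
  classical
  have hB := K.sp
  have hQ := K.nondeg hN
  have hp := K.hypPair hN
  set E := eichGroup (K.quad hN)
  set R := refl (K.quad hN) w
  have hga : (g : V ≃ₗ[F] V) a ≠ 0 := fun e => K.left.ne ((g : V ≃ₗ[F] V).injective (e.trans (map_zero _).symm))
  obtain ⟨k, hk, t, ht, hkt⟩ := exists_pairGroup_map hQ (by omega) hp hga (by rw [orth_map]; exact K.quad_a hN)
  rw [(eq_zero_or_one h2 t).resolve_left ht, one_smul] at hkt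
  rw [pairGroup_eq_eichGroup hQ (by omega) hp] at hk
  have hp' : HypPair (K.quad hN) a (((k * g : orth (K.quad hN)) : V ≃ₗ[F] V) b) := by
    refine ⟨K.quad_a hN, by rw [orth_map]; exact K.quad_b hN, ?_⟩
    conv_lhs => arg 2; rw [← hkt]
    rw [← orth_mul_apply, orth_polar, K.polar_quad hN, K.pair]
  obtain ⟨c, hc, hce⟩ := exists_eich_map hp hp'
  set m : orth (K.quad hN) := (eich (K.quad hN) a c)⁻¹ * (k * g) with hm
  have hmE : ∀ r : orth (K.quad hN), m * r ∈ E → g * r ∈ E := by
    intro r hr
    have : g * r = k⁻¹ * eich (K.quad hN) a c * (m * r) := by rw [hm]; group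
    rw [this]
    exact mul_mem (mul_mem (inv_mem hk) (eich_mem_eichGroup _ _)) hr
  suffices h : m ∈ E ∨ m * R ∈ E by
    rcases h with h | h
    · exact Or.inl (by simpa using hmE 1 (by simpa using h))
    · exact Or.inr (hmE R h)
  have hca : polar (K.quad hN) a c = 0 := (mem_pperp.1 hc).1
  have hma : (m : V ≃ₗ[F] V) a = a := by
    rw [hm, orth_mul_apply, orth_mul_apply, hkt]
    have e : (eich (K.quad hN) a c : V ≃ₗ[F] V) a = a := by
      rw [eich_apply (K.quad_a hN) hca, polar_self, K.quad_a hN, smul_zero, polar_comm (⇑(K.quad hN)) c a, hca]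
      simp
    conv_lhs => arg 2; rw [← e]
    exact orth_inv_apply_apply _ _
  have hmb : (m : V ≃ₗ[F] V) b = b := by
    rw [hm, orth_mul_apply, ← hce]
    exact orth_inv_apply_apply _ _
  -- a basis adapted to `w`
  obtain ⟨u, hua, hub, huw⟩ := K.exists_one hwa hwb (fun e => hw (by rw [e, QuadraticMap.map_zero]))
  have hwu : B w u = 1 := by rw [hB.symm, huw]
  have hext : ∀ x y : V, B x a = B y a → B x b = B y b → B x w = B y w → B x u = B y u → x = y := by
    let T : V →ₗ[F] F × F × F × F := (B.flip a).prod ((B.flip b).prod ((B.flip w).prod (B.flip u)))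
    have hT : Function.Surjective T := fun p => by
      refine ⟨p.2.1 • a + p.1 • b + p.2.2.2 • w + p.2.2.1 • u, ?_⟩
      simp [T, hB.alt, K.pair, K.pair', hwa, hwb, hua, hub, huw, hwu, hB.symm a w, hB.symm b w, hB.symm a u,
        hB.symm b u]
    have hTi := (LinearMap.injective_iff_surjective_of_finrank_eq_finrank
      (by simp [Module.finrank_prod, hdim])).2 hT
    intro x y h1 h2 h3 h4
    exact hTi (by simp [T, h1, h2, h3, h4])
  have hdec : ∀ x : V, x = B x b • a + B x a • b + B x u • w + B x w • u := fun x => by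
    apply hext <;> simp [hB.alt, K.pair, K.pair', hwa, hwb, hua, hub, huw, hwu, hB.symm a w, hB.symm b w,
      hB.symm a u, hB.symm b u]
  have heq : ∀ g h : orth (K.quad hN), (g : V ≃ₗ[F] V) a = (h : V ≃ₗ[F] V) a →
      (g : V ≃ₗ[F] V) b = (h : V ≃ₗ[F] V) b → (g : V ≃ₗ[F] V) w = (h : V ≃ₗ[F] V) w →
      (g : V ≃ₗ[F] V) u = (h : V ≃ₗ[F] V) u → g = h := by
    intro g h e1 e2 e3 e4
    refine orth_ext fun x => ?_
    rw [hdec x]
    simp only [map_add, map_smul, e1, e2, e3, e4]
  have hRfix : ∀ {v : V}, B v a = 0 → B v b = 0 →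
      (refl (K.quad hN) v : V ≃ₗ[F] V) a = a ∧ (refl (K.quad hN) v : V ≃ₗ[F] V) b = b := fun {v} h h' =>
    ⟨refl_apply_of_ortho (by rw [K.polar_quad hN, h]), refl_apply_of_ortho (by rw [K.polar_quad hN, h'])⟩
  have hQw := K.refl_eq_one_iff hN h2 hdim hw
  have hRw : (R : V ≃ₗ[F] V) w = w := by
    rw [show R = refl (K.quad hN) w from rfl, refl_apply_self hw]
    linear_combination (norm := module) -add_self_V (F := F) w
  have hRu : (R : V ≃ₗ[F] V) u = u + w := by
    rw [show R = refl (K.quad hN) w from rfl, refl_apply, hQw, K.polar_quad hN, hwu, inv_one, one_mul, one_smul]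
    linear_combination (norm := module) -add_self_V (F := F) w
  have fixw : ∀ n : orth (K.quad hN), (n : V ≃ₗ[F] V) a = a → (n : V ≃ₗ[F] V) b = b →
      (n : V ≃ₗ[F] V) w = w → n = 1 ∨ n = R := by
    intro n na nb nw
    have hiso : ∀ x y, B ((n : V ≃ₗ[F] V) x) ((n : V ≃ₗ[F] V) y) = B x y := fun x y => by
      rw [← K.polar_quad hN, orth_polar, K.polar_quad hN]
    have h1 : B ((n : V ≃ₗ[F] V) u) a = 0 := by conv_lhs => arg 2; rw [← na]
                                                rw [hiso, hua]
    have h1' : B ((n : V ≃ₗ[F] V) u) b = 0 := by conv_lhs => arg 2; rw [← nb]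
                                                 rw [hiso, hub]
    have h1'' : B ((n : V ≃ₗ[F] V) u) w = 1 := by conv_lhs => arg 2; rw [← nw]
                                                  rw [hiso, huw]
    rcases eq_zero_or_one h2 (B ((n : V ≃ₗ[F] V) u) u) with h | h
    · left
      refine heq n 1 (by rw [na]; rfl) (by rw [nb]; rfl) (by rw [nw]; rfl) ?_
      show (n : V ≃ₗ[F] V) u = u
      rw [hdec ((n : V ≃ₗ[F] V) u), h1, h1', h1'', h]
      simp
    · right
      refine heq n R (by rw [na]; exact (hRfix hwa hwb).1.symm) (by rw [nb]; exact (hRfix hwa hwb).2.symm)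
        (by rw [nw, hRw]) ?_
      rw [hRu, hdec ((n : V ≃ₗ[F] V) u), h1, h1', h1'', h]
      simp only [zero_smul, one_smul]
      abel
  by_cases hmw : (m : V ≃ₗ[F] V) w = w
  · rcases fixw m hma hmb hmw with h | h <;> rw [h]
    · exact Or.inl (one_mem _)
    · exact Or.inr (by rw [show R * R = 1 from refl_mul_self w]; exact one_mem _)
  · set w' := (m : V ≃ₗ[F] V) w
    have hiso : ∀ x y, B ((m : V ≃ₗ[F] V) x) ((m : V ≃ₗ[F] V) y) = B x y := fun x y => by
      rw [← K.polar_quad hN, orth_polar, K.polar_quad hN]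
    have hw'a : B w' a = 0 := by conv_lhs => arg 2; rw [← hma]
                                 rw [hiso, hwa]
    have hw'b : B w' b = 0 := by conv_lhs => arg 2; rw [← hmb]
                                 rw [hiso, hwb]
    have hQw' : K.quad hN w' = 1 := by rw [orth_map, hQw]
    have hB' : B w w' = 1 := by
      refine (eq_zero_or_one h2 _).resolve_left fun h => hmw ?_
      have e := hdec w'
      rw [hw'a, hw'b, hB.symm w' w, h, zero_smul, zero_smul, zero_smul, zero_add, zero_add, add_zero] at e
      rcases eq_zero_or_one h2 (B w' u) with h' | h' <;> rw [h'] at e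
      · rw [zero_smul] at e
        rw [e, QuadraticMap.map_zero] at hQw'
        exact absurd hQw' zero_ne_one
      · rwa [one_smul] at e
    have hv : K.quad hN (w - w') ≠ 0 := by
      rw [map_sub', hQw, hQw', K.polar_quad hN, hB', CharTwo.add_self_eq_zero, zero_sub]
      exact neg_ne_zero.2 one_ne_zero
    set v := w - w'
    have hva : B v a = 0 := by simp [v, hwa, hw'a]
    have hvb : B v b = 0 := by simp [v, hwb, hw'b]
    have hn := fixw (refl (K.quad hN) v * m) (by rw [orth_mul_apply, hma, (hRfix hva hvb).1])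
      (by rw [orth_mul_apply, hmb, (hRfix hva hvb).2]) (by
        rw [orth_mul_apply]
        have := refl_sub_apply (Q := K.quad hN) (x := w) (y := w') (by rw [hQw, hQw']) hv
        conv_lhs => arg 2; rw [show (m : V ≃ₗ[F] V) w = w' from rfl, ← this]
        rw [← orth_mul_apply, refl_mul_self]
        rfl)
    rcases hn with h | h
    · refine Or.inr ?_
      rw [show m = refl (K.quad hN) v by rw [← mul_one (refl (K.quad hN) v), ← h, ← mul_assoc, refl_mul_self,
        one_mul]]
      exact K.refl_refl_mem hN h2 hdim hva hvb hv hwa hwb hw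
    · refine Or.inl ?_
      rw [show m = refl (K.quad hN) v * R by rw [← h, ← mul_assoc, refl_mul_self, one_mul]]
      exact K.refl_refl_mem hN h2 hdim hva hvb hv hwa hwb hw

/-- The generators of the Eichler group move planes. -/
theorem eich_even (hd : ∀ g h : orth (K.quad hN), dick (g * h) = dick g * dick h) {g : orth (K.quad hN)}
    (hg : g ∈ eichGroup (K.quad hN)) : dick g = 1 := by
  have hB := K.sp
  let D : orth (K.quad hN) →* ℤˣ := MonoidHom.mk' dick hd
  rw [← pairGroup_eq_eichGroup (K.nondeg hN) (by omega) (K.hypPair hN)] at hg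
  refine (show pairGroup (K.quad hN) a b ≤ D.ker from (Subgroup.closure_le _).2 ?_) hg
  have key : ∀ {e z : V}, K.quad hN e = 0 → polar (K.quad hN) e z = 0 → LinearIndependent F ![e, z] →
      dick (eich (K.quad hN) e z) = 1 := by
    intro e z he hez hli
    have hd' : ∀ x, dLin (eich (K.quad hN) e z) x =
        B e x • z + (- B z x - K.quad hN z * B e x) • e := fun x => by
      rw [dLin_apply, eich_apply he hez, K.polar_quad hN, K.polar_quad hN]
      module
    have hres : resid (eich (K.quad hN) e z) = Submodule.span F (Set.range ![e, z]) := by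
      rw [Matrix.range_cons_cons_empty]
      refine le_antisymm ?_ (Submodule.span_le.2 ?_)
      · rintro _ ⟨x, rfl⟩
        rw [hd']
        exact add_mem (Submodule.smul_mem _ _ (Submodule.subset_span (Or.inr rfl)))
          (Submodule.smul_mem _ _ (Submodule.subset_span (Or.inl rfl)))
      · have hze : z ∉ Submodule.span F {e} := fun h => by
          obtain ⟨r, hr⟩ := Submodule.mem_span_singleton.1 h
          have h0 := LinearIndependent.pair_iff.1 hli r (-1) (by rw [hr]; module)
          exact neg_ne_zero.2 one_ne_zero h0.2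
        obtain ⟨φ, hφz, hφe⟩ := Submodule.exists_dual_map_eq_bot_of_notMem hze inferInstance
        obtain ⟨x, hx⟩ := exists_dual hB ((φ z)⁻¹ • φ)
        have hxe : B e x = 0 := by
          have : φ e = 0 := by
            rw [← Submodule.mem_bot (R := F), ← hφe]
            exact Submodule.mem_map_of_mem (Submodule.mem_span_singleton_self e)
          rw [hx, LinearMap.smul_apply, this, smul_zero]
        have hxz : B z x = 1 := by rw [hx, LinearMap.smul_apply, smul_eq_mul, inv_mul_cancel₀ hφz]
        have he_mem : e ∈ resid (eich (K.quad hN) e z) := ⟨x, by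
          rw [hd', hxe, hxz]
          linear_combination (norm := module) -add_self_V (F := F) e⟩
        obtain ⟨y, hy⟩ := exists_pair_one hB
          (show e ≠ 0 from fun e0 => by simpa [e0] using hli.ne_zero 0)
        rintro p (hp | hp) <;> rw [show p = _ from hp]
        · exact he_mem
        · have hmem : dLin (eich (K.quad hN) e z) y ∈ resid (eich (K.quad hN) e z) := ⟨y, rfl⟩
          rw [hd', hB.symm e y, hy, one_smul] at hmem
          exact (Submodule.add_mem_iff_left _ (Submodule.smul_mem _ _ he_mem)).1 hmem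
    rw [dick, rk, hres, finrank_span_eq_card hli, Fintype.card_fin, Int.units_sq]
  rintro _ (⟨z, hz, rfl⟩ | ⟨z, hz, rfl⟩)
  · show dick _ = 1
    by_cases hz0 : z = 0
    · rw [hz0, eich_zero, dick_one]
    obtain ⟨h1, h2'⟩ := mem_pperp.1 hz
    rw [K.polar_quad hN] at h1 h2'
    refine key (K.quad_a hN) (by rw [K.polar_quad hN, h1]) (LinearIndependent.pair_iff.2 fun s t hst => ?_)
    have hs : s = 0 := by simpa [K.pair', hB.symm z b, h2'] using congrArg (B b) hst
    rw [hs, zero_smul, zero_add] at hst
    exact ⟨hs, (smul_eq_zero.1 hst).resolve_right hz0⟩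
  · show dick _ = 1
    by_cases hz0 : z = 0
    · rw [hz0, eich_zero, dick_one]
    obtain ⟨h1, h2'⟩ := mem_pperp.1 hz
    rw [K.polar_quad hN] at h1 h2'
    refine key (K.quad_b hN) (by rw [K.polar_quad hN, h2']) (LinearIndependent.pair_iff.2 fun s t hst => ?_)
    have hs : s = 0 := by simpa [K.pair, h1] using congrArg (B a) hst
    rw [hs, zero_smul, zero_add] at hst
    exact ⟨hs, (smul_eq_zero.1 hst).resolve_right hz0⟩

/-- Over two elements in dimension four `L` is the orthogonal group or its elements of even rank. -/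
theorem eq_even_or_top (hd : ∀ g h : orth (K.quad hN), dick (g * h) = dick g * dick h) :
    (∀ g : orth (K.quad hN), g ∈ L.subgroupOf (orth (K.quad hN)) ↔ dick g = 1) ∨
      L.subgroupOf (orth (K.quad hN)) = ⊤ := by
  obtain ⟨w, -, hwa, hwb, -, -, -, hw⟩ := K.exists_anisotropic hN (by omega)
  set R := refl (K.quad hN) w
  set S := L.subgroupOf (orth (K.quad hN))
  have hle : eichGroup (K.quad hN) ≤ S := K.eichGroup_le hN (by omega)
  have hdich := K.mem_eich_or hN h2 hdim hwa hwb hw
  have hRR : ∀ g : orth (K.quad hN), g = g * R * R := fun g => by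
    rw [mul_assoc, show R * R = 1 from refl_mul_self w, mul_one]
  by_cases hR : R ∈ S
  · refine Or.inr ((Subgroup.eq_top_iff' S).2 fun g => ?_)
    rcases hdich g with h | h
    · exact hle h
    · rw [hRR g]; exact mul_mem (hle h) hR
  refine Or.inl fun g => ?_
  rcases hdich g with h | h
  · exact ⟨fun _ => K.eich_even hN h2 hdim hd h, fun _ => hle h⟩
  · refine ⟨fun hg => absurd ?_ hR, fun hg => absurd (?_ : dick R = 1) ?_⟩
    · have := mul_mem (inv_mem hg) (hle h)
      rwa [inv_mul_cancel_left] at this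
    · have := K.eich_even hN h2 hdim hd h
      rwa [hd, hg, one_mul] at this
    · rw [dick_refl (K.nondeg hN) hw]
      decide

end Small

end Frame

end Cfsg.Agent.H5.Sp2
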