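import Cfsg.Agent.H5.Sp2.Frame

/-!
# The normal 2-subgroups of the stabiliser of a vector
-/

set_option autoImplicit false
set_option linter.unusedSectionVars false
set_option linter.unusedVariables false

namespace Cfsg.Agent.H5.Sp2

variable {F : Type*} [Field F] [CharP F 2] [Finite F] {V : Type*} [AddCommGroup V] [Module F V]
  [FiniteDimensional F V]
variable {B : V →ₗ[F] V →ₗ[F] F} {a : V}

/-- An isometry fixing `a` and trivial on the perp of `a` modulo `a` is some `gel B a u x`. -/
theorem exists_shape (hB : IsSp B) (ha : a ≠ 0) (g : V ≃ₗ[F] V) (hg : ∀ v w, B (g v) (g w) = B v w)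
    (hga : g a = a) (htriv : ∀ v, B v a = 0 → g v + v ∈ Submodule.span F {a}) :
    ∃ u x, B u a = 0 ∧ g = gel B a u x := by
  obtain ⟨b, hba⟩ := exists_pair_one hB ha
  have hab : B a b = 1 := by rw [hB.symm, hba]
  set d := g b + b with hd
  have hgb : g b = b + d := by rw [hd]; linear_combination (norm := module) -add_self_V (F := F) b
  have hda : B d a = 0 := by
    have h := hg b a
    rw [hga, hgb, map_add, LinearMap.add_apply, add_eq_left] at h
    exact h
  set u := d + B d b • a with hu
  have hua : B u a = 0 := by simp [hu, hda, hB.alt]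
  have hbu : B b u = 0 := by simp [hu, hB.symm b d, hba, CharTwo.add_self_eq_zero]
  have hb : gel B a u (B d b) b = g b := by
    rw [gel_apply hB hua, hba, hbu, hgb, hu]
    linear_combination (norm := module) B d b • add_self_V (F := F) a
  have hperp : ∀ v, B v a = 0 → gel B a u (B d b) v = g v := by
    intro v hv
    obtain ⟨r, hr⟩ := Submodule.mem_span_singleton.1 (htriv v hv)
    have hgv : g v = v + r • a := by rw [hr]; linear_combination (norm := module) -add_self_V (F := F) v
    have h := hg v b
    rw [hgv, hgb] at h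
    simp only [map_add, map_smul, LinearMap.add_apply, LinearMap.smul_apply, smul_eq_mul, hab,
      hB.symm a d, hda, mul_one, mul_zero, add_zero] at h
    have hr' : r = B v d := by linear_combination h - B v d * CharTwo.two_eq_zero (R := F)
    rw [gel_apply hB hua, hv, hgv, hr', hu]
    simp [hv]
  refine ⟨u, B d b, hua, LinearEquiv.ext fun v => ?_⟩
  have hv : v = (v + B v a • b) + B v a • b := by
    linear_combination (norm := module) -B v a • add_self_V (F := F) b
  have key : ∀ w (c : F), B w a = 0 → g (w + c • b) = gel B a u (B d b) (w + c • b) := fun w c hw => by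
    rw [map_add, map_add, map_smul, map_smul, hperp w hw, hb]
  have := key _ (B v a) (show B (v + B v a • b) a = 0 by simp [hba, CharTwo.add_self_eq_zero])
  rwa [← hv] at this

/-- A product of two transvections with non-orthogonal centres is not a 2-element. -/
theorem not_two_element (hB : IsSp B) {v z : V} (h : B v z ≠ 0) (k : ℕ) :
    (gel B v 0 1 * gel B z 0 1) ^ 2 ^ k ≠ 1 := by
  intro hk
  set n := gel B v 0 1 * gel B z 0 1
  set φ := B v z
  have hzv : B z v = φ := hB.symm z v
  have hn : ∀ α β : F, n (α • v + β • z) + (α • v + β • z) =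
      (α * φ * φ + β * φ) • v + (α * φ) • z := fun α β => by
    simp only [n, LinearEquiv.mul_apply, gel_zero_apply hB, one_mul, map_add, map_smul, LinearMap.add_apply,
      LinearMap.smul_apply, smul_eq_mul, hB.alt, hzv]
    linear_combination (norm := module) α • add_self_V (F := F) v + β • add_self_V (F := F) z
  let D : Module.End F V := (n : V →ₗ[F] V) + 1
  have hind : ∀ α β : F, α • v + β • z = 0 → α = 0 ∧ β = 0 := fun α β hab => by
    have h1 := congrArg (fun x => B x z) hab
    have h2 := congrArg (fun x => B x v) hab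
    simp only [map_add, map_smul, LinearMap.add_apply, LinearMap.smul_apply, smul_eq_mul, hB.alt, hzv,
      mul_zero, add_zero, zero_add, map_zero, LinearMap.zero_apply] at h1 h2
    exact ⟨(mul_eq_zero.1 h1).resolve_right h, (mul_eq_zero.1 h2).resolve_right h⟩
  have hpow : ∀ j : ℕ, ∃ α β : F, (D ^ j) z = α • v + β • z ∧ (α ≠ 0 ∨ β ≠ 0) := by
    intro j
    induction j with
    | zero => exact ⟨0, 1, by simp, Or.inr one_ne_zero⟩
    | succ j ih =>
      obtain ⟨α, β, e, hne⟩ := ih
      refine ⟨α * φ * φ + β * φ, α * φ, ?_, ?_⟩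
      · rw [pow_succ', Module.End.mul_apply, e]
        exact hn α β
      · by_contra hc
        push Not at hc
        have hα : α = 0 := (mul_eq_zero.1 hc.2).resolve_right h
        rw [hα] at hc
        have hβ : β = 0 := (mul_eq_zero.1 (by simpa using hc.1 : β * φ = 0)).resolve_right h
        rcases hne with h' | h'
        · exact h' hα
        · exact h' hβ
  have hsq : ∀ j : ℕ, D ^ 2 ^ j = ((n ^ 2 ^ j : V ≃ₗ[F] V) : V →ₗ[F] V) + 1 := by
    intro j
    induction j with
    | zero => simp [D]
    | succ j ih =>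
      rw [pow_succ, pow_mul, ih, pow_mul, pow_two, pow_two, LinearEquiv.coe_toLinearMap_mul]
      refine LinearMap.ext fun x => ?_
      simp only [LinearMap.add_apply, Module.End.mul_apply, Module.End.one_apply, map_add]
      linear_combination (norm := module) add_self_V (F := F) ((n ^ 2 ^ j) x)
  obtain ⟨α, β, e, hne⟩ := hpow (2 ^ k)
  rw [hsq, hk] at e
  have e' : α • v + β • z = 0 := by
    rw [← e]
    simp [add_self_V (F := F) z]
  obtain ⟨h1, h2⟩ := hind α β e'
  rcases hne with h' | h'
  · exact h' h1
  · exact h' h2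

/-- A normal subgroup of 2-elements of the stabiliser of `a` is trivial on the perp of `a` modulo `a`. -/
theorem radical_shape (hB : IsSp B) (ha : a ≠ 0) {N : Subgroup (V ≃ₗ[F] V)}
    (hiso : ∀ g ∈ N, ∀ v w, B (g v) (g w) = B v w) (hfix : ∀ g ∈ N, g a = a)
    (hnorm : ∀ z, B z a = 0 → ∀ g ∈ N, gel B z 0 1 * g * (gel B z 0 1)⁻¹ ∈ N)
    (h2 : ∀ g ∈ N, ∃ k : ℕ, g ^ 2 ^ k = 1) {g : V ≃ₗ[F] V} (hg : g ∈ N) :
    ∃ u x, B u a = 0 ∧ g = gel B a u x := by
  refine exists_shape hB ha g (hiso g hg) (hfix g hg) fun z hz => ?_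
  have hmem : ∀ g ∈ N, ∀ z, B z a = 0 → gel B (g z) 0 1 * gel B z 0 1 ∈ N := by
    intro g hg z hz
    have e : g * gel B z 0 1 * g⁻¹ = gel B (g z) 0 1 := by
      rw [gel_conj hB g (hiso g hg) (by simp), map_zero]
    rw [← e, show g * gel B z 0 1 * g⁻¹ * gel B z 0 1 = g * (gel B z 0 1 * g⁻¹ * (gel B z 0 1)⁻¹) by
      rw [gel_inv hB (by simp)]; group]
    exact mul_mem hg (hnorm z hz _ (inv_mem hg))
  have horth : ∀ g ∈ N, ∀ z, B z a = 0 → B (g z) z = 0 := by
    intro g hg z hz
    by_contra h
    obtain ⟨k, hk⟩ := h2 _ (hmem g hg z hz)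
    exact not_two_element hB h k hk
  have hgz : B (g z) z = 0 := horth g hg z hz
  have hzg : B z (g z) = 0 := by rw [hB.symm, hgz]
  set s := g z + z with hs
  have hperp : ∀ w, B w a = 0 → B w s = 0 := by
    intro w hw
    have h := horth _ (hmem g hg z hz) w hw
    simp only [LinearEquiv.mul_apply, gel_zero_apply hB, one_mul, map_add, map_smul, LinearMap.add_apply,
      LinearMap.smul_apply, smul_eq_mul, hB.alt, hzg, hgz, hB.symm (g z) w, hB.symm z w, mul_zero, add_zero,
      zero_add] at h
    have h0 : B w s * B w s = 0 := by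
      rw [hs, map_add]
      linear_combination h + (B w z * B w (g z)) * CharTwo.two_eq_zero (R := F)
    exact mul_self_eq_zero.1 h0
  by_contra hns
  obtain ⟨φ, hφs, hφa⟩ := Submodule.exists_dual_map_eq_bot_of_notMem hns inferInstance
  obtain ⟨w, hw⟩ := exists_dual hB φ
  have hwa : B w a = 0 := by
    rw [hB.symm, hw]
    rw [← Submodule.mem_bot (R := F), ← hφa]
    exact Submodule.mem_map_of_mem (Submodule.mem_span_singleton_self a)
  refine hφs ?_
  rw [← hw, hB.symm]
  exact hperp w hwa

/-- A complement to the transvections gives an element for every vector orthogonal to `a`. -/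
theorem root_of_card [Finite V] (hB : IsSp B) (ha : a ≠ 0) (X : Subgroup (V ≃ₗ[F] V))
    (hX : ∀ g ∈ X, ∃ u x, B u a = 0 ∧ g = gel B a u x) (hnt : ∀ x, gel B a 0 x ∈ X → x = 0)
    (hcard : Nat.card X = Nat.card F ^ (Module.finrank F V - 2)) {u : V} (hu : B u a = 0) :
    ∃ x, gel B a u x ∈ X := by
  classical
  obtain ⟨b, hba⟩ := exists_pair_one hB ha
  have hab : B a b = 1 := by rw [hB.symm, hba]
  let T : V →ₗ[F] F × F := (B.flip a).prod (B.flip b)
  have hT : Function.Surjective T := fun p =>
    ⟨p.2 • a + p.1 • b, by simp [T, hB.alt, hab, hba]⟩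
  have hker : Nat.card (LinearMap.ker T) = Nat.card F ^ (Module.finrank F V - 2) := by
    have h := LinearMap.finrank_range_add_finrank_ker T
    rw [LinearMap.range_eq_top.2 hT, finrank_top, Module.finrank_prod, Module.finrank_self] at h
    rw [Module.natCard_eq_pow_finrank (K := F), show Module.finrank F V - 2 =
      Module.finrank F (LinearMap.ker T) by omega]
  let π : V →ₗ[F] V := LinearMap.id + (B.flip b).smulRight a + (B.flip a).smulRight b
  have hπ : ∀ v, π v = v + B v b • a + B v a • b := fun v => rfl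
  have hπker : ∀ v, π v ∈ LinearMap.ker T := fun v => by
    simp [hπ, T, hB.alt, hab, hba, CharTwo.add_self_eq_zero]
  choose v x hv hg using fun g : X => hX g g.2
  have hinj : Function.Injective fun g : X => (⟨π (v g), hπker _⟩ : LinearMap.ker T) := by
    intro g h e
    have e' : π (v g) = π (v h) := congrArg Subtype.val e
    rw [hπ, hπ, hv, hv, zero_smul, add_zero, add_zero] at e'
    have hvh : v h = v g + (B (v g) b + B (v h) b) • a := by
      rw [add_smul, ← add_assoc, e']
      linear_combination (norm := module) -B (v h) b • add_self_V (F := F) a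
    have hh : (h : V ≃ₗ[F] V) = gel B a (v g) (x h) := by rw [hg h, hvh, gel_shift hB (hv g)]
    have hp := mul_mem g.2 h.2
    rw [hh, hg g, gel_mul hB (hv g) (hv g), hB.alt, add_zero, add_self_V (F := F)] at hp
    refine Subtype.ext ?_
    rw [hh, hg g, CharTwo.add_eq_zero.1 (hnt _ hp)]
  obtain ⟨-, hsur⟩ := (Nat.bijective_iff_injective_and_card _).2 ⟨hinj, by rw [hcard, hker]⟩
  obtain ⟨g, hge⟩ := hsur ⟨π u, hπker u⟩
  have e' : π (v g) = π u := congrArg Subtype.val hge
  rw [hπ, hπ, hv, hu, zero_smul, add_zero, add_zero] at e'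
  have hug : u = v g + (B (v g) b + B u b) • a := by
    rw [add_smul, ← add_assoc, e']
    linear_combination (norm := module) -B u b • add_self_V (F := F) a
  refine ⟨x g, ?_⟩
  rw [hug, gel_shift hB (hv g), ← hg g]
  exact g.2

end Cfsg.Agent.H5.Sp2
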