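import Cfsg.Agent.H5.Sp2.Form
import Cfsg.Agent.H36.SymIndex

/-!
# The exceptional subgroups of `Sp_4(2)`

With two elements, dimension four and a line with three points of the orbit, `L` is transitive on the non-zero
vectors, and so has order divisible by `60` but different from it; inside `S_6` this leaves `S_6`, `A_6`, `S_5`.
-/

set_option autoImplicit false
set_option linter.unusedSectionVars false
set_option linter.unusedVariables false

namespace Cfsg.Agent.H5.Sp2

variable {F : Type*} [Field F] [CharP F 2] [Finite F] {V : Type*} [AddCommGroup V] [Module F V]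
  [FiniteDimensional F V] [Finite V]
variable {B : V →ₗ[F] V →ₗ[F] F} {L : Subgroup (V ≃ₗ[F] V)} {a : V}

theorem five_power {k : ℕ} {G : Type*} [Group G] {y : G} (hy : orderOf y = 5) (hk : k < 5)
    (hkk : y ^ (k * k) = y) : k = 1 ∨ k = 4 := by
  have h : k * k ≡ 1 [MOD 5] := by
    rw [← hy, ← pow_eq_pow_iff_modEq, hkk, pow_one]
  interval_cases k <;> simp_all [Nat.ModEq]

namespace Hyp

variable (H : Hyp B L a)
include H

theorem pt_all (hT : NoT B L a) (h2 : Nat.card F = 2) (hN : ¬ NoThird B L a) : ∀ v, v ≠ 0 → Pt L a v := by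
  have hB := H.sp
  simp only [NoThird, not_forall, not_not] at hN
  obtain ⟨P, R, hP, hR, hPR, hs⟩ := hN
  have HP := H.of_pt hP
  have hTP := H.noT hP hT
  have hR' : Pt L P R := hP.symm.trans hR
  have K : Frame B L P R := ⟨HP, hR', hPR, hTP⟩
  have one : ∀ v, B v P = 1 → Pt L P v := by
    intro v hv
    set u := v + B v R • P + R with hu
    have huP : B u P = 0 := by simp [hu, hB.alt, hv, K.pair', CharTwo.add_self_eq_zero]
    have huR : B R u = 0 := by
      simp [hu, hB.alt, hB.symm R v, K.pair', CharTwo.add_self_eq_zero]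
    have hg := HP.cc_spec huP
    have e1 : gel B P u (cc B L P u) R = R + u + cc B L P u • P := by
      rw [gel_apply hB huP, K.pair', huR]
      simp
    rcases eq_zero_or_one h2 (B v R + cc B L P u) with h | h
    · have := hR'.map hg
      rw [e1] at this
      convert this using 1
      rw [hu, ← CharTwo.add_eq_zero.1 h]
      linear_combination (norm := module) -B v R • add_self_V (F := F) P - add_self_V (F := F) R
    · have := (hP.symm.trans hs).map hg
      rw [map_add, gel_fix hB huP, e1] at this
      convert this using 1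
      have hc : cc B L P u = 1 + B v R := by
        rw [← h]; linear_combination (-(B v R)) * CharTwo.two_eq_zero (R := F)
      rw [hu, hc, add_smul, one_smul]
      linear_combination (norm := module)
        -B v R • add_self_V (F := F) P - add_self_V (F := F) R - add_self_V (F := F) P
  have one' : ∀ z, Pt L P z → ∀ v, B v z = 1 → Pt L P v := by
    intro z hz v hv
    obtain ⟨g, hg, μ, hμ, rfl⟩ := hz
    rw [(eq_zero_or_one h2 μ).resolve_left hμ, one_smul] at hv
    obtain ⟨x, rfl⟩ : ∃ x, g x = v := g.surjective v
    rw [H.iso g hg] at hv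
    exact (one x hv).map hg
  intro v hv
  refine hP.trans ?_
  rcases eq_zero_or_one h2 (B v P) with h | h
  swap
  · exact one v h
  by_cases hvP : v = P
  · rw [hvP]; exact Pt.self P
  have hvS : v ∉ Submodule.span F {P} := fun hm => by
    obtain ⟨r, hr⟩ := Submodule.mem_span_singleton.1 hm
    rcases eq_zero_or_one h2 r with e | e <;> rw [e] at hr
    · exact hv (by rw [← hr, zero_smul])
    · exact hvP (by rw [← hr, one_smul])
  obtain ⟨φ, hφv, hφP⟩ := Submodule.exists_dual_map_eq_bot_of_notMem hvS inferInstance
  obtain ⟨z0, hz0⟩ := exists_dual hB φ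
  have hPz0 : B P z0 = 0 := by
    rw [hz0, ← Submodule.mem_bot (R := F), ← hφP]
    exact Submodule.mem_map_of_mem (Submodule.mem_span_singleton_self P)
  have hvz0 : B v z0 = 1 := (eq_zero_or_one h2 _).resolve_left (by rwa [hz0])
  rcases eq_zero_or_one h2 (B v R) with hr | hr
  · refine one' (R + z0) (one _ ?_) v ?_
    · rw [map_add, LinearMap.add_apply, hB.symm z0, hPz0, K.pair', add_zero]
    · rw [map_add, hr, hvz0, zero_add]
  · exact one' R hR' v hr

/-- Inside `S_6` the group is `S_6`, `A_6` or `S_5`. -/
theorem small_cases (hT : NoT B L a) (h2 : Nat.card F = 2) (hdim : Module.finrank F V = 4)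
    (hN : ¬ NoThird B L a) (e : L →* Equiv.Perm (Fin 6)) (he : Function.Injective e) :
    Function.Surjective e ∨ Nonempty (L ≃* alternatingGroup (Fin 6)) ∨ Nonempty (L ≃* Equiv.Perm (Fin 5)) := by
  classical
  have hB := H.sp
  have hall := H.pt_all hT h2 hN
  obtain ⟨b, hb, hab⟩ := H.exists_partner
  have K : Frame B L a b := ⟨H, hb, hab, hT⟩
  -- the four group at `a`
  let T : V →ₗ[F] F × F := (B.flip a).prod (B.flip b)
  have hT' : Function.Surjective T := fun p =>
    ⟨p.2 • a + p.1 • b, by simp [T, hB.alt, K.pair, K.pair']⟩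
  have hU : Nat.card (LinearMap.ker T) = 4 := by
    have h := LinearMap.finrank_range_add_finrank_ker T
    rw [LinearMap.range_eq_top.2 hT', finrank_top, Module.finrank_prod, Module.finrank_self, hdim] at h
    rw [Module.natCard_eq_pow_finrank (K := F), show Module.finrank F (LinearMap.ker T) = 2 by omega, h2]
    rfl
  have hUa : ∀ u : LinearMap.ker T, B (u : V) a = 0 ∧ B (u : V) b = 0 := fun u => by
    have := u.2
    simpa [T] using this
  let φ : Multiplicative (LinearMap.ker T) →* L :=
    { toFun := fun u => ⟨gel B a (u.toAdd : V) (cc B L a (u.toAdd : V)), H.cc_spec (hUa _).1⟩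
      map_one' := Subtype.ext (by
        show gel B a (0 : V) (cc B L a 0) = 1
        rw [H.cc_zero hT, gel_zero hB])
      map_mul' := fun u w => Subtype.ext (by
        show gel B a ((u.toAdd : V) + (w.toAdd : V)) (cc B L a ((u.toAdd : V) + (w.toAdd : V))) = _ * _
        rw [gel_mul hB (hUa _).1 (hUa _).1, H.cc_add hT (hUa _).1 (hUa _).1]) }
  have hφfix : ∀ u, ((φ u : L) : V ≃ₗ[F] V) a = a := fun u => gel_fix hB (hUa _).1 _
  have hφapp : ∀ (u : Multiplicative (LinearMap.ker T)) (v : V), ((φ u : L) : V ≃ₗ[F] V) v =
      v + B v a • (u.toAdd : V) + (B v (u.toAdd : V) + cc B L a (u.toAdd : V) * B v a) • a :=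
    fun u v => gel_apply hB (hUa _).1 _ _
  have hφinj : Function.Injective φ := by
    intro u w huw
    have h := congrArg (fun g : L => (g : V ≃ₗ[F] V) b) huw
    simp only [hφapp, hB.symm b (u.toAdd : V), hB.symm b (w.toAdd : V), (hUa _).2, K.pair'] at h
    refine Multiplicative.toAdd.injective (Subtype.ext ?_)
    set d := (u.toAdd : V) + (w.toAdd : V)
    have hd : d + (cc B L a (u.toAdd : V) + cc B L a (w.toAdd : V)) • a = 0 := by
      simp only [d]
      linear_combination (norm := module) h + add_self_V (F := F) (w.toAdd : V) +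
        cc B L a (w.toAdd : V) • add_self_V (F := F) a
    have hr := congrArg (B b) hd
    simp [d, hB.symm b (u.toAdd : V), hB.symm b (w.toAdd : V), (hUa _).2, K.pair'] at hr
    rw [hr, zero_smul, add_zero] at hd
    linear_combination (norm := module) hd - add_self_V (F := F) (w.toAdd : V)
  -- orbit counting
  let St : Subgroup L := (MulAction.stabilizer (V ≃ₗ[F] V) a).subgroupOf L
  have hSt : ∀ g : L, g ∈ St ↔ (g : V ≃ₗ[F] V) a = a := fun g => Iff.rfl
  have hStφ : φ.range ≤ St := by rintro _ ⟨u, rfl⟩; exact (hSt _).2 (hφfix u)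
  have hφcard : Nat.card φ.range = 4 := by
    rw [← Nat.card_congr (MonoidHom.ofInjective hφinj).toEquiv]
    exact hU
  haveI : Fintype V := Fintype.ofFinite V
  haveI : Finite (V ≃ₗ[F] V) := Finite.of_injective (fun g => (g : V → V)) DFunLike.coe_injective
  have hindex : St.index = 15 := by
    have hV : Nat.card V = 16 := by
      rw [Module.natCard_eq_pow_finrank (K := F), hdim, h2]; rfl
    have e1 : St = MulAction.stabilizer L a := Subgroup.ext fun g => Iff.rfl
    rw [e1, MulAction.index_stabilizer]
    have e2 : MulAction.orbit L a = {v : V | v ≠ 0} := by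
      ext v
      constructor
      · rintro ⟨g, rfl⟩
        exact fun h => H.ne ((g : V ≃ₗ[F] V).injective (h.trans (map_zero _).symm))
      · intro hv
        obtain ⟨g, hg, μ, hμ, rfl⟩ := hall v hv
        refine ⟨⟨g, hg⟩, ?_⟩
        rw [(eq_zero_or_one h2 μ).resolve_left hμ, one_smul]
        rfl
    rw [e2]
    have h16 : Fintype.card V = 16 := by rw [← Nat.card_eq_fintype_card, hV]
    rw [Set.ncard_eq_toFinset_card']
    simp [Set.toFinset_setOf, Finset.filter_ne', Finset.card_erase_of_mem, h16]
  have hcardL := St.index_mul_card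
  rw [hindex] at hcardL
  have h4 : 4 ∣ Nat.card St := hφcard ▸ Subgroup.card_dvd_of_le hStφ
  -- order sixty is impossible
  have hne : Nat.card L ≠ 60 := by
    intro h60
    have hSt4 : Nat.card St = 4 := by omega
    have hEq : φ.range = St := Subgroup.eq_of_le_of_card_ge hStφ (by rw [hSt4, hφcard])
    haveI : Fact (Nat.Prime 2) := ⟨Nat.prime_two⟩
    haveI : Fact (Nat.Prime 5) := ⟨by norm_num⟩
    let P : Sylow 2 L := Sylow.ofCard St (by rw [hSt4, h60]; decide +kernel)
    have hfix : ∀ v : V, (∀ s ∈ St, (s : V ≃ₗ[F] V) v = v) → v = 0 ∨ v = a := by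
      intro v hv
      have key : ∀ u : LinearMap.ker T, B v a • (u : V) + (B v (u : V) + cc B L a (u : V) * B v a) • a = 0 := by
        intro u
        have h := hv _ (hStφ ⟨Multiplicative.ofAdd u, rfl⟩)
        rw [hφapp, add_assoc, add_eq_left] at h
        exact h
      have hva : B v a = 0 := by
        obtain ⟨u, hu⟩ : ∃ u : LinearMap.ker T, u ≠ 0 := by
          haveI : Nontrivial (LinearMap.ker T) := Finite.one_lt_card_iff_nontrivial.1 (by rw [hU]; norm_num)
          exact exists_ne 0
        by_contra hne
        have h := key u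
        rw [(eq_zero_or_one h2 _).resolve_left hne, one_smul] at h
        refine hu (Subtype.ext ?_)
        have hb' := congrArg (B b) h
        simp [hB.symm b (u : V), (hUa u).2, K.pair'] at hb'
        simpa [hb'] using h
      have hvu : ∀ u : LinearMap.ker T, B v (u : V) = 0 := fun u => by
        have h := key u
        rw [hva, zero_smul, zero_add, mul_zero, add_zero] at h
        exact (smul_eq_zero.1 h).resolve_right H.ne
      have hw : v + B v b • a = 0 := by
        refine hB.nd _ fun x => ?_
        have hx : x = (x + B x b • a + B x a • b) + B x b • a + B x a • b := by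
          linear_combination (norm := module)
            -B x b • add_self_V (F := F) a - B x a • add_self_V (F := F) b
        rw [hx]
        have h1 := hvu ⟨x + B x b • a + B x a • b, by
          simp [T, hB.alt, K.pair, K.pair', CharTwo.add_self_eq_zero]⟩
        simp only at h1
        rw [map_add, map_add]
        simp only [map_add, map_smul, LinearMap.add_apply, LinearMap.smul_apply] at h1 ⊢
        simp [hva, hB.alt, hB.symm a x, K.pair, CharTwo.add_self_eq_zero]
        simp only [hva, smul_eq_mul, mul_zero, add_zero] at h1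
        linear_combination h1
      rcases eq_zero_or_one h2 (B v b) with h | h <;> rw [h] at hw
      · left; simpa using hw
      · right
        rw [one_smul] at hw
        linear_combination (norm := module) hw - add_self_V (F := F) a
    have hP : Subgroup.normalizer (P : Set L) ≤ Subgroup.centralizer (P : Set L) := by
      intro g hg
      rw [Subgroup.mem_centralizer_iff]
      have hga : (g : V ≃ₗ[F] V) a = a := by
        rcases hfix ((g : V ≃ₗ[F] V) a) (fun s hs => by
          have : g⁻¹ * s * g ∈ St := (Subgroup.mem_normalizer_iff''.1 hg s).1 hs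
          have e : (s : V ≃ₗ[F] V) ((g : V ≃ₗ[F] V) a) =
              (g : V ≃ₗ[F] V) (((g⁻¹ * s * g : L) : V ≃ₗ[F] V) a) := by
            simp [LinearEquiv.mul_apply]
          rw [e, (hSt _).1 this]) with h | h
        · exact absurd h (fun h => H.ne ((g : V ≃ₗ[F] V).injective (h.trans (map_zero _).symm)))
        · exact h
      intro x hx
      obtain ⟨u, rfl⟩ : x ∈ φ.range := by rw [hEq]; exact (show x ∈ St from hx)
      obtain ⟨w, rfl⟩ : g ∈ φ.range := by rw [hEq]; exact (hSt g).2 hga
      rw [← map_mul, ← map_mul, mul_comm]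
    set N := (MonoidHom.transferSylow P hP).ker
    have hN : Nat.card N = 15 := by
      have h := (MonoidHom.ker_transferSylow_isComplement' P hP).card_mul
      rw [h60, show Nat.card (P : Subgroup L) = 4 from hSt4] at h
      change Nat.card N * 4 = 60 at h
      omega
    let S : Sylow 5 N := default
    have hS : Nat.card S = 5 := by
      rw [S.card_eq_multiplicity, hN]; decide +kernel
    have hSuniq : Subsingleton (Sylow 5 N) := by
      have h1 := card_sylow_modEq_one 5 N
      have h3 : Nat.card (Sylow 5 N) ∣ 3 := by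
        have := S.card_dvd_index
        have hi := (S : Subgroup N).index_mul_card
        rw [hN, show Nat.card (S : Subgroup N) = 5 from hS] at hi
        rwa [show (S : Subgroup N).index = 3 by omega] at this
      rw [← Finite.card_le_one_iff_subsingleton]
      rcases (Nat.dvd_prime Nat.prime_three).1 h3 with h | h <;> rw [h] at h1 ⊢
      simp [Nat.ModEq] at h1
    haveI : (S : Subgroup N).Normal := Sylow.normal_of_subsingleton S
    haveI : (S : Subgroup N).Characteristic := S.characteristic_of_normal inferInstance
    set Y : Subgroup L := (S : Subgroup N).map N.subtype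
    have hYn : Y.Normal := ConjAct.normal_of_characteristic_of_normal
    have hY : Nat.card Y = 5 := by
      rw [← hS]
      exact (Nat.card_congr ((S : Subgroup N).equivMapOfInjective _ N.subtype_injective).toEquiv).symm
    obtain ⟨y0, hy0⟩ := exists_prime_orderOf_dvd_card' (G := Y) 5 (by rw [hY])
    set y : L := (y0 : L)
    have hy : orderOf y = 5 := by rw [Subgroup.orderOf_coe, hy0]
    have hYy : Subgroup.zpowers y = Y :=
      Subgroup.eq_of_le_of_card_ge ((Subgroup.zpowers_le).2 y0.2) (by rw [Nat.card_zpowers, hy, hY])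
    have hconj : ∀ g ∈ St, g * y * g⁻¹ = y ∨ g * y * g⁻¹ = y⁻¹ := by
      intro g hg
      obtain ⟨u, rfl⟩ : g ∈ φ.range := by rw [hEq]; exact hg
      have hmem : φ u * y * (φ u)⁻¹ ∈ Subgroup.zpowers y := by rw [hYy]; exact hYn.conj_mem _ y0.2 _
      obtain ⟨k, hk, hk'⟩ := Finset.mem_image.1 ((mem_zpowers_iff_mem_range_orderOf).1 hmem)
      rw [Finset.mem_range, hy] at hk
      have hu2 : φ u * φ u = 1 := by
        rw [← map_mul]
        convert map_one φ
        exact Multiplicative.toAdd.injective (Subtype.ext (add_self_V (F := F) _))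
      have hui : (φ u)⁻¹ = φ u := inv_eq_of_mul_eq_one_right hu2
      have hkk : y ^ (k * k) = y := by
        rw [pow_mul, hk', conj_pow, hk', hui]
        calc φ u * (φ u * y * φ u) * φ u = (φ u * φ u) * y * (φ u * φ u) := by group
          _ = y := by rw [hu2, one_mul, mul_one]
      rcases five_power hy hk hkk with rfl | rfl
      · left; rw [← hk', pow_one]
      · right; rw [← hk']
        refine eq_inv_of_mul_eq_one_left ?_
        rw [← pow_succ, show 4 + 1 = orderOf y by rw [hy]]; exact pow_orderOf_eq_one y
    obtain ⟨g, hgS, hg1, hgy⟩ : ∃ g ∈ St, g ≠ 1 ∧ g * y * g⁻¹ = y := by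
      by_contra hall'
      push Not at hall'
      haveI : Fintype (LinearMap.ker T) := Fintype.ofFinite _
      obtain ⟨u, hu⟩ : ∃ u : LinearMap.ker T, u ≠ 0 := by
        haveI : Nontrivial (LinearMap.ker T) := Finite.one_lt_card_iff_nontrivial.1 (by rw [hU]; norm_num)
        exact exists_ne 0
      obtain ⟨w, hw⟩ : ∃ w : LinearMap.ker T, w ∉ ({0, u} : Finset (LinearMap.ker T)) := by
        by_contra hw
        push Not at hw
        have := (Finset.card_le_card (fun x (_ : x ∈ Finset.univ) => hw x)).trans Finset.card_le_two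
        rw [Finset.card_univ, ← Nat.card_eq_fintype_card, hU] at this
        omega
      simp only [Finset.mem_insert, Finset.mem_singleton, not_or] at hw
      have hne1 : ∀ x : LinearMap.ker T, x ≠ 0 → φ (Multiplicative.ofAdd x) ≠ 1 := fun x hx h => hx (by
        have := hφinj (h.trans (map_one φ).symm)
        simpa using this)
      have hinv : ∀ x : LinearMap.ker T, x ≠ 0 →
          φ (Multiplicative.ofAdd x) * y * (φ (Multiplicative.ofAdd x))⁻¹ = y⁻¹ := fun x hx =>
        (hconj _ (hStφ ⟨_, rfl⟩)).resolve_left (hall' _ (hStφ ⟨_, rfl⟩) (hne1 x hx))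
      have huw : u + w ≠ 0 := fun h => hw.2 (Subtype.ext (by
        have := congrArg Subtype.val h
        simp at this
        linear_combination (norm := module) this - add_self_V (F := F) (u : V)))
      have h3 := hinv (u + w) huw
      rw [ofAdd_add, map_mul, mul_inv_rev,
        show φ (Multiplicative.ofAdd u) * φ (Multiplicative.ofAdd w) * y *
          ((φ (Multiplicative.ofAdd w))⁻¹ * (φ (Multiplicative.ofAdd u))⁻¹) = φ (Multiplicative.ofAdd u) *
          (φ (Multiplicative.ofAdd w) * y * (φ (Multiplicative.ofAdd w))⁻¹) * (φ (Multiplicative.ofAdd u))⁻¹ by group,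
        hinv w hw.1, show φ (Multiplicative.ofAdd u) * y⁻¹ * (φ (Multiplicative.ofAdd u))⁻¹ =
          (φ (Multiplicative.ofAdd u) * y * (φ (Multiplicative.ofAdd u))⁻¹)⁻¹ by group, hinv u hu, inv_inv] at h3
      have : y ^ 2 = 1 := by rw [pow_two]; exact eq_inv_iff_mul_eq_one.1 h3
      have := orderOf_dvd_of_pow_eq_one this
      rw [hy] at this
      norm_num at this
    obtain ⟨u, rfl⟩ : g ∈ φ.range := by rw [hEq]; exact hgS
    have hu0 : (u.toAdd : V) ≠ 0 := fun h => hg1 (by
      have : u = 1 := Multiplicative.toAdd.injective (Subtype.ext h)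
      rw [this, map_one])
    let T2 : V →ₗ[F] F × F := (B.flip a).prod (B.flip (u.toAdd : V))
    have hk2 : Nat.card (LinearMap.ker T2) ≤ 4 := by
      obtain ⟨z, hza, hzb, hzu⟩ := K.exists_one (hUa _).1 (hUa _).2 hu0
      have hT2 : Function.Surjective T2 := fun p =>
        ⟨p.1 • b + p.2 • z, by simp [T2, K.pair', hza, hzu, hB.symm b (u.toAdd : V), (hUa _).2]⟩
      have h := LinearMap.finrank_range_add_finrank_ker T2
      rw [LinearMap.range_eq_top.2 hT2, finrank_top, Module.finrank_prod, Module.finrank_self, hdim] at h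
      rw [Module.natCard_eq_pow_finrank (K := F), show Module.finrank F (LinearMap.ker T2) = 2 by omega, h2]
      norm_num
    have hmem : ∀ i : ℕ, ((y ^ i : L) : V ≃ₗ[F] V) a ∈ LinearMap.ker T2 := by
      intro i
      set v := ((y ^ i : L) : V ≃ₗ[F] V) a
      have hcomm : Commute (φ u) y := by
        have := hgy
        rw [mul_inv_eq_iff_eq_mul] at this
        exact this
      have e1 : ((φ u : L) : V ≃ₗ[F] V) v = v := by
        simp only [v]
        rw [← LinearEquiv.mul_apply, ← Subgroup.coe_mul, (hcomm.pow_right i).eq, Subgroup.coe_mul,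
          LinearEquiv.mul_apply, hφfix]
      rw [hφapp, add_assoc, add_eq_left] at e1
      have hva : B v a = 0 := by
        by_contra hne
        rw [(eq_zero_or_one h2 _).resolve_left hne, one_smul] at e1
        have hb' := congrArg (B b) e1
        simp [hB.symm b (u.toAdd : V), (hUa _).2, K.pair'] at hb'
        exact hu0 (by simpa [hb'] using e1)
      rw [hva, zero_smul, zero_add, mul_zero, add_zero] at e1
      simp [T2, hva, (smul_eq_zero.1 e1).resolve_right H.ne]
    obtain ⟨i, j, hij, hvij⟩ : ∃ i j : Fin 5, i ≠ j ∧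
        ((y ^ (i : ℕ) : L) : V ≃ₗ[F] V) a = ((y ^ (j : ℕ) : L) : V ≃ₗ[F] V) a := by
      by_contra hall'
      push Not at hall'
      have := Nat.card_le_card_of_injective (fun i : Fin 5 => (⟨_, hmem i⟩ : LinearMap.ker T2))
        fun i j h => by
          by_contra hne
          exact hall' i j hne (congrArg Subtype.val h)
      rw [Nat.card_fin] at this
      omega
    have key : ∀ i j : ℕ, i < j → j < 5 →
        ((y ^ i : L) : V ≃ₗ[F] V) a = ((y ^ j : L) : V ≃ₗ[F] V) a → False := by
      intro i j hij hj h
      have e : ((y ^ i : L) : V ≃ₗ[F] V) (((y ^ (j - i) : L) : V ≃ₗ[F] V) a) = ((y ^ i : L) : V ≃ₗ[F] V) a := by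
        rw [← LinearEquiv.mul_apply, ← Subgroup.coe_mul, ← pow_add, Nat.add_sub_cancel' hij.le]
        exact h.symm
      have hfix' : y ^ (j - i) ∈ St := (hSt _).2 (((y ^ i : L) : V ≃ₗ[F] V).injective e)
      have h5 : orderOf (y ^ (j - i)) = 5 := by
        rw [Nat.Coprime.orderOf_pow, hy]
        rw [hy]
        exact (Nat.Prime.coprime_iff_not_dvd (by norm_num)).2 (fun hd => by
          have := Nat.le_of_dvd (by omega) hd; omega)
      have := Subgroup.orderOf_dvd_natCard St hfix'
      rw [h5, hSt4] at this
      norm_num at this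
    rcases lt_or_gt_of_ne (fun h => hij (Fin.ext h)) with h | h
    · exact key _ _ h j.2 hvij
    · exact key _ _ h i.2 hvij.symm
  -- inside `S_6`
  have hR := e.range.index_mul_card
  rw [Nat.card_perm, Nat.card_fin, show Nat.factorial 6 = 720 from rfl,
    ← Nat.card_congr (MonoidHom.ofInjective he).toEquiv] at hR
  obtain ⟨m, hm⟩ := h4
  have hm0 : 0 < m := by
    rcases Nat.eq_zero_or_pos m with rfl | h
    · rw [mul_zero] at hm
      exact absurd hm (Nat.card_pos (α := St)).ne'
    · exact h
  have hk : e.range.index * m = 12 := by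
    rw [← hcardL, hm] at hR
    nlinarith
  have hm1 : m ≠ 1 := fun h => hne (by rw [← hcardL, hm, h])
  have hk6 : e.range.index ≤ 6 := by
    have hm2 : 2 ≤ m := by omega
    nlinarith
  rcases Nat.lt_or_ge e.range.index 6 with h | h
  · by_cases htop : e.range = ⊤
    · exact Or.inl (MonoidHom.range_eq_top.1 htop)
    by_cases halt : e.range = alternatingGroup (Fin 6)
    · exact Or.inr (Or.inl ⟨(MonoidHom.ofInjective he).trans (MulEquiv.subgroupCongr halt)⟩)
    have h6 := H36.SymIndex.card_le_index (by rw [Nat.card_fin]; norm_num) e.range htop halt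
    rw [Nat.card_fin] at h6
    omega
  · have h6 : e.range.index = 6 := by omega
    obtain ⟨ψ, p, hψ⟩ := H36.SymIndex.exists_aut (by rw [Nat.card_fin]; norm_num) e.range (by rw [h6, Nat.card_fin])
    right; right
    let ι : Equiv.Perm {x : Fin 6 // x ≠ p} →* Equiv.Perm (Fin 6) :=
      ψ.symm.toMonoidHom.comp (Equiv.Perm.ofSubtype (p := fun x : Fin 6 => x ≠ p))
    have hι : Function.Injective ι := fun g h hgh =>
      Equiv.Perm.ofSubtype_injective (ψ.symm.injective hgh)
    have hle : ι.range ≤ e.range := by
      rintro _ ⟨g, rfl⟩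
      rw [hψ]
      show ψ (ψ.symm (Equiv.Perm.ofSubtype g)) p = p
      rw [MulEquiv.apply_symm_apply, Equiv.Perm.ofSubtype_apply_of_not_mem g (by simp)]
    have hc : Nat.card e.range ≤ Nat.card ι.range := by
      have := e.range.index_mul_card
      rw [h6, Nat.card_perm, Nat.card_fin, show Nat.factorial 6 = 720 from rfl] at this
      rw [← Nat.card_congr (MonoidHom.ofInjective hι).toEquiv, Nat.card_perm,
        show Nat.card {x : Fin 6 // x ≠ p} = 5 by rw [Nat.card_eq_fintype_card, Fintype.card_subtype_compl]; simp,
        show Nat.factorial 5 = 120 from rfl]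
      omega
    have heq := Subgroup.eq_of_le_of_card_ge hle hc
    exact ⟨((MonoidHom.ofInjective he).trans (MulEquiv.subgroupCongr heq.symm)).trans
      ((MonoidHom.ofInjective hι).symm.trans
        (Fintype.equivFinOfCardEq (show Fintype.card {x : Fin 6 // x ≠ p} = 5 by
          rw [Fintype.card_subtype_compl]; simp)).permCongrHom)⟩

end Hyp

end Cfsg.Agent.H5.Sp2
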