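import Cfsg.Agent.H5.Sp2.Transv
import Cfsg.Agent.H5.Sp2.Omega
import Cfsg.Agent.H5.Sp2.SmallFour
import Cfsg.Agent.H5.Sp2.Radical
import Cfsg.Agent.H5.Blocks
import Cfsg.Agent.H5.OmegaForms
import Cfsg.Agent.H65.OmegaMat
import Cfsg.Agent.H98.MaximalSp
import Cfsg.Agent.H19.Cores
import Cfsg.Agent.S0247

/-!
# The matrix form of the overgroup theorem
-/

set_option autoImplicit false
set_option linter.unusedSectionVars false
set_option linter.unusedVariables false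

namespace Cfsg.Agent.H5.Sp2

open QuadraticMap
open scoped Matrix

section Dickson

variable {F : Type*} [Field F] [Finite F] {ι : Type} [Fintype ι] [DecidableEq ι]

/-- The Dickson sign is multiplicative also in the exceptional case. -/
theorem dick_mul_all (Q : QuadraticForm F (ι → F)) (hQ : (polarBilin Q).Nondegenerate) (g h : orth Q) :
    dick (g * h) = dick g * dick h := by
  classical
  by_cases hex : Nat.card F ≠ 2 ∨ Module.finrank F (ι → F) ≠ 4
  · exact dick_mul hQ (by rw [reflGroup_eq_top hQ hex]; exact Subgroup.mem_top _) h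
  push Not at hex
  have h6 : Module.finrank F (ι ⊕ (Fin 1 ⊕ Fin 1) → F) ≠ 4 := by
    rw [Module.finrank_fintype_fun_eq_card] at hex
    rw [Module.finrank_fintype_fun_eq_card, Fintype.card_sum, hex.2]
    simp
  have hQS := qSum_nondegenerate hQ (qPlus_nondegenerate (F := F) 1)
  have key : ∀ k : orth Q, dick (sumHom (k, (1 : orth (qPlus 1 F)))) = dick k := fun k => by
    rw [dick_sumHom, dick_one, mul_one]
  rw [← key (g * h), ← key g, ← key h,
    ← dick_mul hQS (by rw [reflGroup_eq_top hQS (Or.inr h6)]; exact Subgroup.mem_top _), ← map_mul,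
    Prod.mk_mul_mk, one_mul]

theorem dick_eq_one_iff {V : Type*} [AddCommGroup V] [Module F V] {Q : QuadraticForm F V} (g : orth Q) :
    dick g = 1 ↔ Even (rk g) := by
  rw [dick, neg_one_pow_eq_one_iff_even (by decide)]

end Dickson

variable {F : Type*} [Field F] [Fintype F] [CharP F 2] {n : ℕ}

local notation "ιn" => Fin n ⊕ Fin n

/-- The bridge from matrices to linear equivalences. -/
noncomputable def toEquiv : GL (Fin n ⊕ Fin n) F ≃* ((Fin n ⊕ Fin n → F) ≃ₗ[F] (Fin n ⊕ Fin n → F)) :=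
  Matrix.GeneralLinearGroup.toLin.trans (LinearMap.GeneralLinearGroup.generalLinearEquiv F _)

theorem toEquiv_apply (g : GL (Fin n ⊕ Fin n) F) (x : Fin n ⊕ Fin n → F) :
    toEquiv g x = (g : Matrix (Fin n ⊕ Fin n) (Fin n ⊕ Fin n) F) *ᵥ x := rfl

theorem sympForm_eq_sum (u v : Fin n ⊕ Fin n → F) :
    Cfsg.sympForm n F u v = ∑ i : Fin n, (u (Sum.inl i) * v (Sum.inr i) + u (Sum.inr i) * v (Sum.inl i)) := by
  rw [Cfsg.Agent.H2.sympForm_apply]
  exact Finset.sum_congr rfl fun i _ => by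
    linear_combination (-(u (Sum.inl i) * v (Sum.inr i))) * CharTwo.two_eq_zero (R := F)

/-- The overgroup theorem. -/
theorem overgroup (hn : 2 ≤ n) (a : (Fin n ⊕ Fin n → F)) (ha : a ≠ 0)
    (X L : Subgroup (GL (Fin n ⊕ Fin n) F))
    (hXO : ∀ H : Subgroup (GL (Fin n ⊕ Fin n) F),
      (∀ g : GL (Fin n ⊕ Fin n) F, g ∈ H ↔ (g ∈ Cfsg.spGL n F ∧
        Matrix.mulVec (g : Matrix (Fin n ⊕ Fin n) (Fin n ⊕ Fin n) F) a = a)) →
      X ≤ (Cfsg.pCore 2 ↥H).map H.subtype)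
    (hcard : Nat.card ↥X = Fintype.card F ^ (2 * n - 2))
    (hntv : ∀ x ∈ X, ((x : Matrix (Fin n ⊕ Fin n) (Fin n ⊕ Fin n) F) - 1).rank ≠ 1)
    (hXL : X ≤ L) (hLG : L ≤ Cfsg.spGL n F)
    (hirr : ∀ W : Submodule F (Fin n ⊕ Fin n → F),
      (∀ g ∈ L, ∀ w ∈ W, Matrix.mulVec (g : Matrix (Fin n ⊕ Fin n) (Fin n ⊕ Fin n) F) w ∈ W) → W = ⊥ ∨ W = ⊤) :
    L = Cfsg.spGL n F ∨
    (∃ Q : QuadraticForm F (Fin n ⊕ Fin n → F), (∀ u v, QuadraticMap.polar ⇑Q u v = Cfsg.sympForm n F u v) ∧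
      (L = Cfsg.isometryGroup F ⇑Q ∨
        ∀ g : GL (Fin n ⊕ Fin n) F, g ∈ L ↔ (g ∈ Cfsg.isometryGroup F ⇑Q ∧
          Even ((g : Matrix (Fin n ⊕ Fin n) (Fin n ⊕ Fin n) F) - 1).rank))) ∨
    (Fintype.card F = 2 ∧ n = 2 ∧
      (Nonempty (↥L ≃* ↥(alternatingGroup (Fin 6))) ∨ Nonempty (↥L ≃* Equiv.Perm (Fin 5)))) := by
  classical
  set B := Cfsg.Agent.H2.sympBilin n F with hBdef
  have hB : IsSp B := ⟨fun v => Cfsg.Agent.H2.sympBilin_isAlt n F v,
    fun v h => (Cfsg.Agent.H2.sympBilin_nondegenerate n F).1 v h⟩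
  have hdim : Module.finrank F (Fin n ⊕ Fin n → F) = 2 * n := by
    rw [Module.finrank_fintype_fun_eq_card, Fintype.card_sum, Fintype.card_fin, two_mul]
  set φ := toEquiv (F := F) (n := n)
  have hφ : ∀ g x, φ g x = (g : Matrix (Fin n ⊕ Fin n) (Fin n ⊕ Fin n) F) *ᵥ x := toEquiv_apply
  have hiso : ∀ g : GL (Fin n ⊕ Fin n) F, g ∈ Cfsg.spGL n F ↔
      ∀ v w, B (φ g v) (φ g w) = B v w := fun g => by
    simp only [hφ]
    exact H98.mem_spGL
  set L' := L.map φ.toMonoidHom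
  have hmemL : ∀ g, φ g ∈ L' ↔ g ∈ L := fun g => Subgroup.mem_map_iff_mem φ.injective
  set X' := X.map φ.toMonoidHom
  -- the shape of `X`
  let H0 : Subgroup (GL (Fin n ⊕ Fin n) F) :=
    Cfsg.spGL n F ⊓ (MulAction.stabilizer ((Fin n ⊕ Fin n → F) ≃ₗ[F] (Fin n ⊕ Fin n → F)) a).comap φ.toMonoidHom
  have hH0 : ∀ g, g ∈ H0 ↔ (g ∈ Cfsg.spGL n F ∧
      Matrix.mulVec (g : Matrix (Fin n ⊕ Fin n) (Fin n ⊕ Fin n) F) a = a) := fun g => Iff.rfl
  have hX0 := hXO H0 hH0
  set N := ((Cfsg.pCore 2 ↥H0).map H0.subtype).map φ.toMonoidHom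
  have hshape : ∀ g ∈ X', ∃ u x, B u a = 0 ∧ g = gel B a u x := by
    rintro _ ⟨g, hg, rfl⟩
    refine radical_shape hB ha (N := N) ?_ ?_ ?_ ?_ ⟨g, hX0 hg, rfl⟩
    · rintro _ ⟨_, ⟨k, -, rfl⟩, rfl⟩
      exact (hiso _).1 k.2.1
    · rintro _ ⟨_, ⟨k, -, rfl⟩, rfl⟩
      exact k.2.2
    · rintro z hz _ ⟨_, ⟨k, hk, rfl⟩, rfl⟩
      obtain ⟨t, ht⟩ := φ.surjective (gel B z 0 1)
      have htH : t ∈ H0 := by
        refine ⟨(hiso t).2 fun v w => ?_, ?_⟩
        · rw [ht]; exact gel_iso hB (by simp) 1 v w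
        · show φ t a = a
          rw [ht, gel_zero_apply hB, hB.symm a z, hz, mul_zero, zero_smul, add_zero]
      haveI := H19.pCore_normal 2 ↥H0
      have := Subgroup.Normal.conj_mem this k hk ⟨t, htH⟩
      refine ⟨(⟨t, htH⟩ * k * ⟨t, htH⟩⁻¹ : ↥H0), ⟨_, this, rfl⟩, ?_⟩
      simp [ht, map_mul, map_inv]
    · rintro _ ⟨_, ⟨k, hk, rfl⟩, rfl⟩
      obtain ⟨j, hj⟩ := (H19.pCore_isPGroup (G := ↥H0) 2) ⟨k, hk⟩
      refine ⟨j, ?_⟩
      have h1 : k ^ 2 ^ j = 1 := congrArg Subtype.val hj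
      rw [← map_pow, ← map_pow, h1, map_one, map_one]
  have hnt : ∀ x, gel B a 0 x ∈ X' → x = 0 := by
    rintro x ⟨g, hg, hgx⟩
    by_contra hx
    refine hntv g hg ?_
    change φ g = gel B a 0 x at hgx
    have hrange : LinearMap.range ((g : Matrix (Fin n ⊕ Fin n) (Fin n ⊕ Fin n) F) - 1).mulVecLin =
        Submodule.span F {a} := by
      have e : ∀ v, ((g : Matrix (Fin n ⊕ Fin n) (Fin n ⊕ Fin n) F) - 1).mulVecLin v = (x * B v a) • a := fun v => by
        rw [Matrix.mulVecLin_apply, Matrix.sub_mulVec, Matrix.one_mulVec, ← hφ, hgx, gel_zero_apply hB,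
          add_sub_cancel_left]
      refine le_antisymm ?_ ((Submodule.span_singleton_le_iff_mem _ _).2 ?_)
      · rintro _ ⟨v, rfl⟩
        rw [e]
        exact Submodule.smul_mem _ _ (Submodule.mem_span_singleton_self a)
      · obtain ⟨z, hz⟩ := exists_pair_one hB ha
        exact ⟨x⁻¹ • z, by rw [e, map_smul, LinearMap.smul_apply, hz, smul_eq_mul, mul_one,
          mul_inv_cancel₀ hx, one_smul]⟩
    rw [Matrix.rank, hrange, finrank_span_singleton ha]
  have hcard' : Nat.card X' = Nat.card F ^ (Module.finrank F (Fin n ⊕ Fin n → F) - 2) := by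
    rw [hdim, Nat.card_eq_fintype_card (α := F), ← hcard]
    exact (Nat.card_congr (X.equivMapOfInjective φ.toMonoidHom φ.injective).toEquiv).symm
  have Hh : Hyp B L' a :=
    { sp := hB
      iso := by
        rintro _ ⟨g, hg, rfl⟩ v w
        exact (hiso g).1 (hLG hg) v w
      ne := ha
      root := fun u hu => by
        obtain ⟨x, hx⟩ := root_of_card hB ha X' hshape hnt hcard' hu
        exact ⟨x, Subgroup.map_mono hXL hx⟩
      irr := fun W hW => hirr W fun g hg w hw => by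
        rw [← hφ]; exact hW _ ((hmemL g).2 hg) w hw }
  have hd4 : 4 ≤ Module.finrank F (Fin n ⊕ Fin n → F) := by omega
  by_cases hT : NoT B L' a
  swap
  · refine Or.inl (le_antisymm hLG (H98.spGL_le_of_spTrans L fun v c => ?_))
    refine (hmemL _).1 ?_
    have : φ (H98.spTrans v c) = gel B v 0 c := LinearEquiv.ext fun x => by
      rw [hφ, H98.spTrans_mulVec, gel_zero_apply hB]
    rw [this]
    exact Hh.all_of_transvection hd4 hT v c
  by_cases hN : NoThird B L' a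
  · obtain ⟨b, hb, hab⟩ := Hh.exists_partner
    have K : Frame B L' a b := ⟨Hh, hb, hab, hT⟩
    right; left
    refine ⟨K.quad hN, fun u v => by rw [K.polar_quad hN, hBdef, Cfsg.Agent.H2.sympBilin_apply], ?_⟩
    have hQ := K.nondeg hN
    set Q := K.quad hN
    let ψ := isoEquiv Q (f := ⇑Q) rfl
    have hψ : ∀ g : Cfsg.isometryGroup F ⇑Q, ((ψ g : orth Q) : (Fin n ⊕ Fin n → F) ≃ₗ[F] _) =
        φ (g : GL (Fin n ⊕ Fin n) F) := fun g => rfl
    have hLiso : ∀ g ∈ L, g ∈ Cfsg.isometryGroup F ⇑Q := fun g hg => mem_isometryGroup.2 fun x => by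
      rw [← hφ]; exact K.quad_inv hN ((hmemL g).2 hg) x
    have hmem : ∀ g : Cfsg.isometryGroup F ⇑Q,
        ψ g ∈ L'.subgroupOf (orth Q) ↔ (g : GL (Fin n ⊕ Fin n) F) ∈ L := fun g => by
      rw [Subgroup.mem_subgroupOf, hψ, hmemL]
    have htop : L'.subgroupOf (orth Q) = ⊤ → L = Cfsg.isometryGroup F ⇑Q := fun h =>
      le_antisymm hLiso fun g hg => (hmem ⟨g, hg⟩).1 (by rw [h]; exact Subgroup.mem_top _)
    have heven : (∀ x : orth Q, x ∈ L'.subgroupOf (orth Q) ↔ Even (rk x)) →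
        ∀ g : GL (Fin n ⊕ Fin n) F, g ∈ L ↔ (g ∈ Cfsg.isometryGroup F ⇑Q ∧
          Even ((g : Matrix (Fin n ⊕ Fin n) (Fin n ⊕ Fin n) F) - 1).rank) := by
      intro h g
      constructor
      · intro hg
        refine ⟨hLiso g hg, ?_⟩
        have := (h (ψ ⟨g, hLiso g hg⟩)).1 ((hmem ⟨g, hLiso g hg⟩).2 hg)
        rwa [H65.rk_isoEquiv] at this
      · rintro ⟨hg, he⟩
        refine (hmem ⟨g, hg⟩).1 ((h _).2 ?_)
        rw [H65.rk_isoEquiv]
        exact he
    by_cases hex : Nat.card F ≠ 2 ∨ Module.finrank F (Fin n ⊕ Fin n → F) ≠ 4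
    · rcases K.eq_omega_or_top hN hd4 hex with h | h
      · exact Or.inr (heven fun x => by rw [h, H65.mem_omega_iff_even hQ hex])
      · exact Or.inl (htop h)
    · push Not at hex
      rcases K.eq_even_or_top hN hex.1 hex.2 (dick_mul_all Q hQ) with h | h
      · exact Or.inr (heven fun x => by rw [h x, dick_eq_one_iff])
      · exact Or.inl (htop h)
  · have h2 : Nat.card F = 2 := by
      by_contra h
      exact hN (Hh.noThird hT (Or.inl h) hd4)
    have hn2 : n = 2 := by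
      by_contra h
      exact hN (Hh.noThird hT (Or.inr (by omega)) hd4)
    subst hn2
    rw [Nat.card_eq_fintype_card] at h2
    obtain ⟨i6⟩ := S0247.result (F := F) h2
    let j : Cfsg.spGL 2 F →* Matrix.symplecticGroup (Fin 2) F :=
      { toFun := fun g => ⟨((g : GL (Fin 2 ⊕ Fin 2) F) : Matrix (Fin 2 ⊕ Fin 2) (Fin 2 ⊕ Fin 2) F),
          Cfsg.Agent.H2.mem_symplecticGroup_iff.mpr g.2⟩
        map_one' := Subtype.ext rfl
        map_mul' := fun _ _ => Subtype.ext rfl }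
    have hj : Function.Injective j := fun g h hgh => Subtype.ext (Units.ext (congrArg Subtype.val hgh))
    let eL : L ≃* L' := L.equivMapOfInjective φ.toMonoidHom φ.injective
    let e : L' →* Equiv.Perm (Fin 6) :=
      (i6.toMonoidHom.comp (j.comp (Subgroup.inclusion hLG))).comp eL.symm.toMonoidHom
    have he : Function.Injective e :=
      ((i6.injective.comp (hj.comp (Subgroup.inclusion_injective hLG))).comp eL.symm.injective)
    rcases Hh.small_cases hT (by rw [Nat.card_eq_fintype_card]; exact h2) (by omega) hN e he with h | h | h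
    · refine Or.inl (le_antisymm hLG fun g hg => ?_)
      obtain ⟨x, hx⟩ := h (i6 (j ⟨g, hg⟩))
      have h1 := hj (i6.injective hx)
      have h3 : ((eL.symm x : L) : GL (Fin 2 ⊕ Fin 2) F) = g := congrArg Subtype.val h1
      rw [← h3]
      exact (eL.symm x).2
    · exact Or.inr (Or.inr ⟨h2, rfl, Or.inl ⟨eL.trans h.some⟩⟩)
    · exact Or.inr (Or.inr ⟨h2, rfl, Or.inr ⟨eL.trans h.some⟩⟩)

end Cfsg.Agent.H5.Sp2
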