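import Cfsg.Agent.H5.Sp2.Third

/-!
# The quadratic form preserved by the group

When no line carries three points of the orbit, the scalar functions at `a` and `b` are one quadratic form and
extend to a quadratic form `Q` whose singular points are the orbit; `L` preserves it.
-/

set_option autoImplicit false
set_option linter.unusedSectionVars false
set_option linter.unusedVariables false

namespace Cfsg.Agent.H5.Sp2

variable {F : Type*} [Field F] [CharP F 2] [Finite F] {V : Type*} [AddCommGroup V] [Module F V]
  [FiniteDimensional F V]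
variable {B : V →ₗ[F] V →ₗ[F] F} {L : Subgroup (V ≃ₗ[F] V)} {a b : V}

/-- No hyperbolic line carries three points of the orbit. -/
def NoThird (B : V →ₗ[F] V →ₗ[F] F) (L : Subgroup (V ≃ₗ[F] V)) (a : V) : Prop :=
  ∀ P R, Pt L a P → Pt L a R → B P R = 1 → ¬ Pt L a (P + R)

theorem Hyp.noThird (H : Hyp B L a) (hT : NoT B L a)
    (hq : Nat.card F ≠ 2 ∨ 6 ≤ Module.finrank F V) (hdim : 4 ≤ Module.finrank F V) : NoThird B L a :=
  fun P R hP hR hPR hs =>
    (Frame.mk (H.of_pt hP) (hP.symm.trans hR) hPR (H.noT hP hT)).not_pt_add hq hdim (hP.symm.trans hs)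

namespace Frame

variable (K : Frame B L a b) (hN : NoThird B L a)
include K hN

theorem line_two {P R : V} (hP : Pt L a P) (hR : Pt L a R) (hPR : B P R = 1) {x y : F} (hx : x ≠ 0) (hy : y ≠ 0) :
    ¬ Pt L a (x • P + y • R) := by
  intro h
  obtain ⟨k, hk⟩ := exists_sq (x / y)
  have hk0 : k ≠ 0 := fun e => div_ne_zero hx hy (by rw [← hk, e, zero_mul])
  refine hN (k • P) (k⁻¹ • R) (hP.smul hk0) (hR.smul (inv_ne_zero hk0))
    (by simp [hPR, hk0]) ?_
  have e : x • P + y • R = (y * k) • (k • P + k⁻¹ • R) := by
    rw [smul_add, smul_smul, smul_smul, mul_assoc, hk, mul_div_cancel₀ _ hy, mul_assoc, mul_inv_cancel₀ hk0,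
      mul_one]
  rw [e] at h
  have := h.smul (inv_ne_zero (mul_ne_zero hy hk0))
  rwa [inv_smul_smul₀ (mul_ne_zero hy hk0)] at this

/-- The two functions are inverse to each other. -/
theorem cc_inverse {w : V} (hwa : B w a = 0) (hwb : B w b = 0) (hδ : cc B L b w ≠ 0) :
    cc B L a ((cc B L b w)⁻¹ • w) = (cc B L b w)⁻¹ := by
  set δ := cc B L b w with hδdef
  have hua : B (δ⁻¹ • w) a = 0 := by simp [hwa]
  set c := cc B L a (δ⁻¹ • w)
  have haw : B a w = 0 := by rw [K.sp.symm, hwa]
  have hbw : B b w = 0 := by rw [K.sp.symm, hwb]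
  have h1 := (Pt.self a).map (K.right.cc_spec hwb)
  rw [gel_apply K.sp hwb, K.pair, haw, one_smul, zero_add, mul_one] at h1
  have h2 := K.pt.map (K.left.cc_spec hua)
  rw [gel_apply K.sp hua, K.pair', map_smul, hbw, smul_zero, one_smul, zero_add, mul_one] at h2
  by_contra hne
  refine K.line_two hN (Pt.self a) h2
    (by simp [K.pair, haw, K.sp.alt]) (x := 1 + δ * c) (y := δ) ?_ hδ ?_
  · intro e
    exact hne (eq_inv_of_mul_eq_one_right (CharTwo.add_eq_zero.1 e).symm)
  · convert h1 using 1
    rw [smul_add, smul_add, smul_smul, smul_smul, mul_inv_cancel₀ hδ, one_smul]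
    linear_combination (norm := module) (δ * c) • add_self_V (F := F) a

/-- The two functions are one quadratic form. -/
theorem scalar_form {z : V} (hza : B z a = 0) (hzb : B z b = 0) :
    cc B L b z = cc B L a z ∧ ∀ s : F, cc B L a (s • z) = s * s * cc B L a z := by
  classical
  have hB := K.sp
  by_cases h2 : Nat.card F = 2
  · refine ⟨?_, fun s => ?_⟩
    · have hsymm : NoThird B L b := fun P R hP hR hPR hs =>
        hN P R (K.pt.trans hP) (K.pt.trans hR) hPR (K.pt.trans hs)
      rcases eq_zero_or_one h2 (cc B L b z) with h | h <;>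
        rcases eq_zero_or_one h2 (cc B L a z) with h' | h'
      · rw [h, h']
      · have := K.symm.cc_inverse hsymm hzb hza (by rw [h']; exact one_ne_zero)
        rw [h', inv_one, one_smul, h] at this
        exact absurd this zero_ne_one
      · have := K.cc_inverse hN hza hzb (by rw [h]; exact one_ne_zero)
        rw [h, inv_one, one_smul, h'] at this
        exact absurd this zero_ne_one
      · rw [h, h']
    · rcases eq_zero_or_one h2 s with h | h <;> rw [h]
      · rw [zero_smul, K.left.cc_zero K.noT, zero_mul, zero_mul]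
      · rw [one_smul, one_mul, one_mul]
  by_cases hex : ∃ u, B u a = 0 ∧ B u b = 0 ∧ u ≠ 0 ∧ cc B L a u = 0
  · obtain ⟨u, hua, hub, hu, hc⟩ := hex
    exact K.quad_of_zero h2 hua hub hu hc hza hzb
  push Not at hex
  have main : ∀ z : V, B z a = 0 → B z b = 0 → ∀ y : F, cc B L b (y • z) = y * y * cc B L a z := by
    intro z hza hzb y
    rcases eq_or_ne y 0 with rfl | hy
    · rw [zero_smul, K.right.cc_zero K.noT', zero_mul, zero_mul]
    rcases eq_or_ne z 0 with rfl | hz
    · rw [smul_zero, K.right.cc_zero K.noT', K.left.cc_zero K.noT, mul_zero]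
    obtain ⟨s, hs⟩ : ∃ s : F, cc B L b (s • z) = y := by
      refine Finite.surjective_of_injective (fun s t hst => ?_) y
      have h0 : cc B L b ((s + t) • z) = 0 := by
        rw [add_smul, K.right.cc_add K.noT' (by simp [hzb]) (by simp [hzb]), hst]
        simp [hB.alt, CharTwo.add_self_eq_zero]
      by_contra hne
      have hne' : (s + t) • z ≠ 0 := smul_ne_zero (fun e => hne (CharTwo.add_eq_zero.1 e)) hz
      have := K.symm.cc_line h2 (by simp [hzb]) (by simp [hza]) hne' h0 1
      rw [one_smul] at this
      exact hex _ (by simp [hza]) (by simp [hzb]) hne' this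
    set w := s • z with hw
    have hwa : B w a = 0 := by simp [hw, hza]
    have hwb : B w b = 0 := by simp [hw, hzb]
    have hc := K.cc_inverse hN hwa hwb (by rw [hs]; exact hy)
    rw [hs] at hc
    have hua : B (y⁻¹ • w) a = 0 := by simp [hwa]
    have hgb : gel B b w y ∈ L := by have := K.right.cc_spec hwb; rwa [hs] at this
    have hga : gel B a (y⁻¹ • w) y⁻¹ ∈ L := by have := K.left.cc_spec hua; rwa [hc] at this
    have haw : B a w = 0 := by rw [hB.symm, hwa]
    have hbw : B b w = 0 := by rw [hB.symm, hwb]
    have hga' : (gel B b w y * gel B a (y⁻¹ • w) y⁻¹ * gel B b w y) a = y • b := by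
      rw [LinearEquiv.mul_apply, LinearEquiv.mul_apply, gel_apply hB hwb, gel_apply hB hua, gel_apply hB hwb]
      simp only [map_add, map_smul, LinearMap.add_apply, LinearMap.smul_apply, smul_eq_mul, K.pair, K.pair',
        hB.alt, haw, hbw, hwa, hwb, mul_zero, mul_one, zero_add, add_zero, zero_smul, one_smul, smul_smul,
        mul_inv_cancel₀ hy, inv_mul_cancel₀ hy, zero_mul, CharTwo.add_self_eq_zero]
      linear_combination (norm := module) add_self_V (F := F) w + add_self_V (F := F) a
    have hgz : (gel B b w y * gel B a (y⁻¹ • w) y⁻¹ * gel B b w y) z = z := by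
      have hzw : B z w = 0 := by simp [hw, hB.alt]
      have e1 : ∀ x : F, gel B b w x z = z := fun x => by rw [gel_apply hB hwb]; simp [hzb, hzw]
      have e2 : gel B a (y⁻¹ • w) y⁻¹ z = z := by rw [gel_apply hB hua]; simp [hza, hzw]
      rw [LinearEquiv.mul_apply, LinearEquiv.mul_apply, e1, e2, e1]
    have h := K.left.cc_map K.noT (mul_mem (mul_mem hgb hga) hgb) hza
    rw [hga', hgz] at h
    rw [← K.right.cc_smul K.noT' hy hzb, h]
  refine ⟨?_, fun s => ?_⟩
  · have := main z hza hzb 1
    rwa [one_smul, one_mul, one_mul] at this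
  · have h1 := main (s • z) (by simp [hza]) (by simp [hzb]) 1
    rw [one_smul, one_mul, one_mul] at h1
    rw [← h1, main z hza hzb s]

end Frame

/-- The part of `v` orthogonal to the pair. -/
def proj (B : V →ₗ[F] V →ₗ[F] F) (a b v : V) : V := v + B v b • a + B v a • b

/-- The quadratic form. -/
noncomputable def qval (B : V →ₗ[F] V →ₗ[F] F) (L : Subgroup (V ≃ₗ[F] V)) (a b v : V) : F :=
  B v a * B v b + cc B L a (proj B a b v)

namespace Frame

variable (K : Frame B L a b) (hN : NoThird B L a)
include K hN

theorem qval_add (x y : V) : qval B L a b (x + y) = qval B L a b x + qval B L a b y + B x y := by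
  have hB := K.sp
  have e : proj B a b (x + y) = proj B a b x + proj B a b y := by
    simp only [proj, map_add, LinearMap.add_apply]; module
  have e2 : B (proj B a b x) (proj B a b y) = B x y + B x a * B y b + B x b * B y a := by
    simp only [proj, map_add, map_smul, LinearMap.add_apply, LinearMap.smul_apply, smul_eq_mul, K.pair, K.pair',
      hB.alt, hB.symm a y, hB.symm b y]
    linear_combination (B x a * B y b + B x b * B y a) * CharTwo.two_eq_zero (R := F)
  simp only [qval, e, K.left.cc_add K.noT (u := proj B a b x) (w := proj B a b y) (K.decomp x).1 (K.decomp y).1,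
    e2, map_add, LinearMap.add_apply]
  linear_combination (B x a * B y b + B x b * B y a) * CharTwo.two_eq_zero (R := F)

theorem qval_smul (s : F) (x : V) : qval B L a b (s • x) = s * s * qval B L a b x := by
  have e : proj B a b (s • x) = s • proj B a b x := by
    simp only [proj, map_smul, LinearMap.smul_apply, smul_eq_mul]; module
  simp only [qval, e, (K.scalar_form hN (z := proj B a b x) (K.decomp x).1 (K.decomp x).2).2 s, map_smul,
    LinearMap.smul_apply, smul_eq_mul]
  ring

/-- The quadratic form with polar form `B`. -/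
noncomputable def quad : QuadraticForm F V where
  toFun := qval B L a b
  toFun_smul s x := by rw [K.qval_smul hN, smul_eq_mul]
  exists_companion' := ⟨B, K.qval_add hN⟩

theorem quad_apply (v : V) : K.quad hN v = qval B L a b v := rfl

theorem polar_quad (x y : V) : QuadraticMap.polar (K.quad hN) x y = B x y := by
  rw [QuadraticMap.polar, quad_apply, quad_apply, quad_apply, K.qval_add hN]
  ring

theorem quad_perp {u : V} (hua : B u a = 0) (hub : B u b = 0) : K.quad hN u = cc B L a u := by
  rw [quad_apply, qval, proj, hua, hub]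
  simp

theorem quad_a : K.quad hN a = 0 := by
  rw [quad_apply, qval, proj, K.sp.alt, K.pair, zero_mul, zero_add, one_smul, zero_smul, add_zero,
    add_self_V (F := F), K.left.cc_zero K.noT]

theorem quad_b : K.quad hN b = 0 := by
  rw [quad_apply, qval, proj, K.sp.alt, K.pair', mul_zero, zero_add, one_smul, zero_smul, add_zero,
    add_self_V (F := F), K.left.cc_zero K.noT]

/-- The vectors with product one with `a` lie in the orbit exactly when singular. -/
theorem pt_iff_one {v : V} (hv : B v a = 1) : Pt L a v ↔ K.quad hN v = 0 := by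
  set u := proj B a b v with hu
  set x := B v b
  have hua : B u a = 0 := (K.decomp v).1
  have hub : B u b = 0 := (K.decomp v).2
  have hv' : v = u + x • a + b := by
    rw [hu, proj, hv, one_smul]
    linear_combination (norm := module) -x • add_self_V (F := F) a - add_self_V (F := F) b
  have hval : K.quad hN v = x + cc B L a u := by rw [quad_apply, qval, hv, one_mul]
  have hg := K.left.cc_spec hua
  have hgb : gel B a u (cc B L a u) b = u + cc B L a u • a + b := by
    rw [gel_apply K.sp hua, K.pair', K.sp.symm b u, hub, one_smul, zero_add, mul_one]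
    abel
  rw [hval, CharTwo.add_eq_zero]
  constructor
  · intro h
    by_contra hne
    have h' := h.map hg
    have e : gel B a u (cc B L a u) v = (x + cc B L a u) • a + (1 : F) • b := by
      conv_lhs => rw [hv']
      rw [map_add, map_add, map_smul, hgb, gel_fix K.sp hua, gel_apply K.sp hua, hua, K.sp.alt, zero_smul,
        add_zero, mul_zero, add_zero, zero_smul, add_zero]
      linear_combination (norm := module) add_self_V (F := F) u
    rw [e] at h'
    exact K.line_two hN (Pt.self a) K.pt K.pair (fun e => hne (CharTwo.add_eq_zero.1 e)) one_ne_zero h'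
  · intro hx
    have := K.pt.map hg
    rwa [hgb, ← hx, ← hv'] at this

theorem pt_iff_left {v : V} (hv : B v a ≠ 0) : Pt L a v ↔ K.quad hN v = 0 := by
  have h := K.pt_iff_one hN (v := (B v a)⁻¹ • v) (by simp [hv])
  rw [QuadraticMap.map_smul, smul_eq_mul, mul_eq_zero, mul_self_eq_zero,
    or_iff_right (inv_ne_zero hv)] at h
  rw [← h]
  refine ⟨fun hp => hp.smul (inv_ne_zero hv), fun hp => ?_⟩
  have := hp.smul hv
  rwa [smul_inv_smul₀ hv] at this

theorem noThird' : NoThird B L b := fun P R hP hR hPR hs =>
  hN P R (K.pt.trans hP) (K.pt.trans hR) hPR (K.pt.trans hs)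

theorem quad_symm (v : V) : K.symm.quad (K.noThird' hN) v = K.quad hN v := by
  rw [quad_apply, quad_apply, qval, qval]
  have e : proj B b a v = proj B a b v := by simp only [proj]; abel
  rw [e, (K.scalar_form hN (z := proj B a b v) (K.decomp v).1 (K.decomp v).2).1, mul_comm]

theorem quad_gel {u : V} (hua : B u a = 0) (hub : B u b = 0) (v : V) :
    K.quad hN (gel B a u (cc B L a u) v) = K.quad hN v := by
  set φ := B v a
  set ψ := B v u + cc B L a u * φ
  rw [gel_apply K.sp hua, add_assoc, quad_apply, quad_apply, K.qval_add hN, K.qval_add hN,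
    K.qval_smul hN, K.qval_smul hN, ← quad_apply K hN u, ← quad_apply K hN a, quad_a, K.quad_perp hN hua hub]
  simp only [map_add, map_smul, LinearMap.smul_apply, smul_eq_mul, hua, φ]
  linear_combination (φ * B v u + cc B L a u * φ * φ) * CharTwo.two_eq_zero (R := F)

theorem pt_iff {v : V} (hv : v ≠ 0) : Pt L a v ↔ K.quad hN v = 0 := by
  by_cases hva : B v a = 0
  swap
  · exact K.pt_iff_left hN hva
  by_cases hvb : B v b = 0
  swap
  · rw [← K.quad_symm hN, ← K.symm.pt_iff_left (K.noThird' hN) hvb]
    exact ⟨fun h => K.pt.symm.trans h, fun h => K.pt.trans h⟩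
  obtain ⟨z, hza, hzb, hzv⟩ := K.exists_one hva hvb hv
  have hg := K.right.cc_spec hzb
  set g := gel B b z (cc B L b z) with hgdef
  have hgv : g v = v + b := by
    rw [hgdef, gel_apply K.sp hzb, hvb, K.sp.symm v z, hzv]
    simp
  have hq : K.quad hN (g v) = K.quad hN v := by
    rw [← K.quad_symm hN, ← K.quad_symm hN, hgdef, K.symm.quad_gel (K.noThird' hN) hzb hza]
  have h1 := K.pt_iff_left hN (v := g v) (by rw [hgv]; simp [hva, K.pair'])
  rw [hq] at h1
  rw [← h1]
  refine ⟨fun h => h.map hg, fun h => ?_⟩
  have := h.map (inv_mem hg)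
  rwa [show g⁻¹ (g v) = v from g.symm_apply_apply v] at this

/-- `L` preserves the form. -/
theorem quad_inv {g : V ≃ₗ[F] V} (hg : g ∈ L) (v : V) : K.quad hN (g v) = K.quad hN v := by
  let R : V → F := fun v => K.quad hN (g v) + K.quad hN v
  have hadd : ∀ x y, R (x + y) = R x + R y := fun x y => by
    simp only [R, map_add, quad_apply, K.qval_add hN, K.left.iso g hg]
    linear_combination B x y * CharTwo.two_eq_zero (R := F)
  have hsmul : ∀ (s : F) x, R (s • x) = s * s * R x := fun s x => by
    simp only [R, map_smul, quad_apply, K.qval_smul hN]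
    ring
  have hpt : ∀ P, Pt L a P → R P = 0 := fun P hP => by
    simp only [R]
    rw [(K.pt_iff hN (K.left.pt_ne hP)).1 hP, (K.pt_iff hN (K.left.pt_ne (hP.map hg))).1 (hP.map hg), add_zero]
  have hu : R (proj B a b v) = 0 := by
    set u := proj B a b v
    have hua : B u a = 0 := (K.decomp v).1
    have h := hpt _ (K.pt.map (K.left.cc_spec hua))
    rw [gel_apply K.sp hua, K.pair', K.sp.symm b u, show B u b = 0 from (K.decomp v).2, one_smul, zero_add, mul_one, hadd, hadd,
      hsmul, hpt b K.pt, hpt a (Pt.self a), mul_zero, add_zero, zero_add] at h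
    exact h
  have h := hu
  rw [proj, hadd, hadd, hsmul, hsmul, hpt a (Pt.self a), hpt b K.pt, mul_zero, mul_zero, add_zero, add_zero] at h
  exact CharTwo.add_eq_zero.1 h

end Frame

end Cfsg.Agent.H5.Sp2
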