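import Cfsg.Agent.H5.Sp2.Elem

/-!
# Overgroups of a complement to the transvections in the unipotent radical of a point stabiliser

`L` is a group of isometries of the alternating form `B`, irreducible, and contains an element `gel B a u x` for
every `u` orthogonal to `a`.  The same then holds at every point of the orbit of `a`.  If `L` has no transvection
at `a`, the scalar `x` is a function `cc L a u` of `u`.
-/

set_option autoImplicit false
set_option linter.unusedSectionVars false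
set_option linter.unusedVariables false

namespace Cfsg.Agent.H5.Sp2

variable {F : Type*} [Field F] [CharP F 2] [Finite F] {V : Type*} [AddCommGroup V] [Module F V]
  [FiniteDimensional F V]
variable {B : V →ₗ[F] V →ₗ[F] F} {L : Subgroup (V ≃ₗ[F] V)} {a b : V}

/-- The standing hypotheses. -/
structure Hyp (B : V →ₗ[F] V →ₗ[F] F) (L : Subgroup (V ≃ₗ[F] V)) (a : V) : Prop where
  sp : IsSp B
  iso : ∀ h ∈ L, ∀ v w, B (h v) (h w) = B v w
  ne : a ≠ 0
  root : ∀ u, B u a = 0 → ∃ x, gel B a u x ∈ L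
  irr : ∀ W : Submodule F V, (∀ g ∈ L, ∀ w ∈ W, g w ∈ W) → W = ⊥ ∨ W = ⊤

/-- The vectors on the lines of the orbit of `a`. -/
def Pt (L : Subgroup (V ≃ₗ[F] V)) (a P : V) : Prop := ∃ h ∈ L, ∃ μ : F, μ ≠ 0 ∧ P = μ • h a

/-- `L` has no transvection at `P`. -/
def NoT (B : V →ₗ[F] V →ₗ[F] F) (L : Subgroup (V ≃ₗ[F] V)) (P : V) : Prop :=
  ∀ x : F, gel B P 0 x ∈ L → x = 0

theorem Pt.self (a : V) : Pt L a a := ⟨1, one_mem _, 1, one_ne_zero, (one_smul F a).symm⟩

theorem Pt.smul {P : V} (h : Pt L a P) {μ : F} (hμ : μ ≠ 0) : Pt L a (μ • P) := by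
  obtain ⟨g, hg, ν, hν, rfl⟩ := h
  exact ⟨g, hg, μ * ν, mul_ne_zero hμ hν, smul_smul _ _ _⟩

theorem Pt.map {P : V} (h : Pt L a P) {g : V ≃ₗ[F] V} (hg : g ∈ L) : Pt L a (g P) := by
  obtain ⟨k, hk, ν, hν, rfl⟩ := h
  exact ⟨g * k, mul_mem hg hk, ν, hν, by rw [map_smul]; rfl⟩

theorem Pt.trans {P R : V} (h : Pt L a P) (h' : Pt L P R) : Pt L a R := by
  obtain ⟨g, hg, ν, hν, rfl⟩ := h'
  exact (h.map hg).smul hν

theorem Pt.symm {P : V} (h : Pt L a P) : Pt L P a := by
  obtain ⟨g, hg, ν, hν, rfl⟩ := h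
  refine ⟨g⁻¹, inv_mem hg, ν⁻¹, inv_ne_zero hν, ?_⟩
  rw [map_smul, smul_smul, inv_mul_cancel₀ hν, one_smul]
  exact (g.symm_apply_apply a).symm

namespace Hyp

variable (H : Hyp B L a)
include H

theorem pt_ne {P : V} (h : Pt L a P) : P ≠ 0 := by
  obtain ⟨g, hg, ν, hν, rfl⟩ := h
  exact smul_ne_zero hν (fun e => H.ne (g.injective (e.trans (map_zero g).symm)))

theorem of_pt {P : V} (h : Pt L a P) : Hyp B L P := by
  refine ⟨H.sp, H.iso, H.pt_ne h, fun u hu => ?_, H.irr⟩
  obtain ⟨g, hg, μ, hμ, rfl⟩ := h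
  rw [map_smul, smul_eq_mul, mul_eq_zero, or_iff_right hμ] at hu
  obtain ⟨w, rfl⟩ : ∃ w, g w = u := g.surjective u
  rw [H.iso g hg] at hu
  have hu' : B (μ • w) a = 0 := by rw [map_smul, LinearMap.smul_apply, hu, smul_zero]
  obtain ⟨x, hx⟩ := H.root _ hu'
  refine ⟨(μ * μ)⁻¹ * x, ?_⟩
  have hgw : B (g w) (g a) = 0 := by rw [H.iso g hg, hu]
  rw [gel_smul H.sp hgw, ← map_smul, mul_inv_cancel_left₀ (mul_ne_zero hμ hμ),
    ← gel_conj H.sp g (H.iso g hg) hu']
  exact mul_mem (mul_mem hg hx) (inv_mem hg)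

theorem noT {P : V} (h : Pt L a P) (hT : NoT B L a) : NoT B L P := by
  intro x hx
  obtain ⟨g, hg, μ, hμ, rfl⟩ := h
  rw [gel_smul H.sp (by simp), smul_zero] at hx
  have h' := mul_mem (mul_mem (inv_mem hg) hx) hg
  have e : g⁻¹ * gel B (g a) 0 (μ * μ * x) * g = gel B a 0 (μ * μ * x) := by
    have h2 := gel_conj H.sp g (H.iso g hg) (P := a) (u := 0) (by simp) (μ * μ * x)
    rw [map_zero] at h2
    rw [← h2]
    group
  rw [e] at h'
  exact (mul_eq_zero.1 (hT _ h')).resolve_left (mul_ne_zero hμ hμ)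

/-- The orbit leaves the perp of `a`. -/
theorem exists_partner : ∃ b, Pt L a b ∧ B a b = 1 := by
  obtain ⟨h, hh, hne⟩ : ∃ h ∈ L, B a (h a) ≠ 0 := by
    by_contra hall
    push Not at hall
    let W : Submodule F V := Submodule.span F {y | ∃ h ∈ L, y = h a}
    have hW : ∀ g ∈ L, ∀ w ∈ W, g w ∈ W := fun g hg w hw => by
      have : W.map (g : V →ₗ[F] V) ≤ W := by
        rw [Submodule.map_span]
        refine Submodule.span_le.2 ?_
        rintro _ ⟨_, ⟨k, hk, rfl⟩, rfl⟩
        exact Submodule.subset_span ⟨g * k, mul_mem hg hk, rfl⟩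
      exact this ⟨w, hw, rfl⟩
    have ha : a ∈ W := Submodule.subset_span ⟨1, one_mem _, rfl⟩
    rcases H.irr W hW with h0 | h1
    · exact H.ne (by rwa [h0, Submodule.mem_bot] at ha)
    · obtain ⟨z, hz⟩ := exists_pair_one H.sp H.ne
      have hz' : z ∈ LinearMap.ker (B a) := by
        refine (Submodule.span_le.2 ?_ : W ≤ _) (show z ∈ W by rw [h1]; exact Submodule.mem_top)
        rintro _ ⟨k, hk, rfl⟩
        exact hall k hk
      rw [LinearMap.mem_ker, H.sp.symm, hz] at hz'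
      exact one_ne_zero hz'
  exact ⟨(B a (h a))⁻¹ • h a, ⟨h, hh, _, inv_ne_zero hne, rfl⟩, by
    rw [map_smul, smul_eq_mul, inv_mul_cancel₀ hne]⟩

end Hyp

open scoped Classical in
/-- The scalar of the element of `L` at `P` with vector `u`. -/
noncomputable def cc (B : V →ₗ[F] V →ₗ[F] F) (L : Subgroup (V ≃ₗ[F] V)) (P u : V) : F :=
  if h : ∃ x, gel B P u x ∈ L then h.choose else 0

namespace Hyp

variable (H : Hyp B L a)
include H

theorem cc_spec {u : V} (hu : B u a = 0) : gel B a u (cc B L a u) ∈ L := by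
  rw [cc, dif_pos (H.root u hu)]
  exact (H.root u hu).choose_spec

theorem cc_eq (hT : NoT B L a) {u : V} (hu : B u a = 0) {x : F} (hx : gel B a u x ∈ L) : cc B L a u = x := by
  have h := mul_mem (H.cc_spec hu) hx
  rw [gel_mul H.sp hu hu, H.sp.alt, add_zero, add_self_V (F := F)] at h
  exact CharTwo.add_eq_zero.1 (hT _ h)

theorem cc_zero (hT : NoT B L a) : cc B L a 0 = 0 :=
  H.cc_eq hT (by simp) (by rw [gel_zero H.sp]; exact one_mem _)

theorem cc_add (hT : NoT B L a) {u w : V} (hu : B u a = 0) (hw : B w a = 0) :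
    cc B L a (u + w) = cc B L a u + cc B L a w + B u w :=
  H.cc_eq hT (by simp [hu, hw]) (gel_mul H.sp hu hw _ _ ▸ mul_mem (H.cc_spec hu) (H.cc_spec hw))

theorem cc_shift (hT : NoT B L a) {u : V} (hu : B u a = 0) (t : F) : cc B L a (u + t • a) = cc B L a u :=
  H.cc_eq hT (by simp [hu, H.sp.alt]) (by rw [gel_shift H.sp hu]; exact H.cc_spec hu)

theorem cc_self (hT : NoT B L a) (t : F) : cc B L a (t • a) = 0 := by
  have := H.cc_shift hT (u := 0) (by simp) t
  rwa [zero_add, H.cc_zero hT] at this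

theorem cc_map (hT : NoT B L a) {g : V ≃ₗ[F] V} (hg : g ∈ L) {u : V} (hu : B u a = 0) :
    cc B L (g a) (g u) = cc B L a u := by
  have hP : Pt L a (g a) := (Pt.self a).map hg
  refine (H.of_pt hP).cc_eq (H.noT hP hT) (by rw [H.iso g hg, hu]) ?_
  rw [← gel_conj H.sp g (H.iso g hg) hu]
  exact mul_mem (mul_mem hg (H.cc_spec hu)) (inv_mem hg)

theorem cc_smul (hT : NoT B L a) {μ : F} (hμ : μ ≠ 0) {u : V} (hu : B u a = 0) :
    μ * μ * cc B L (μ • a) u = cc B L a (μ • u) := by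
  have hP : Pt L a (μ • a) := (Pt.self a).smul hμ
  have h1 := (H.of_pt hP).cc_spec (u := u) (by rw [map_smul, hu, smul_zero])
  rw [gel_smul H.sp hu] at h1
  exact (H.cc_eq hT (by rw [map_smul, LinearMap.smul_apply, hu, smul_zero]) h1).symm

/-- An element of `L` fixing `a` preserves the scalars. -/
theorem cc_inv (hT : NoT B L a) {g : V ≃ₗ[F] V} (hg : g ∈ L) (hga : g a = a) {u : V} (hu : B u a = 0) :
    cc B L a (g u) = cc B L a u := by
  have := H.cc_map hT hg hu
  rwa [hga] at this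

end Hyp

/-- A pair of points of the orbit with product one, no transvections. -/
structure Frame (B : V →ₗ[F] V →ₗ[F] F) (L : Subgroup (V ≃ₗ[F] V)) (a b : V) : Prop where
  left : Hyp B L a
  pt : Pt L a b
  pair : B a b = 1
  noT : NoT B L a

namespace Frame

variable (K : Frame B L a b)
include K

theorem sp : IsSp B := K.left.sp

theorem right : Hyp B L b := K.left.of_pt K.pt

theorem noT' : NoT B L b := K.left.noT K.pt K.noT

theorem symm : Frame B L b a :=
  ⟨K.right, K.pt.symm, by rw [K.sp.symm, K.pair], K.noT'⟩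

theorem pair' : B b a = 1 := by rw [K.sp.symm, K.pair]

/-- The part orthogonal to the pair. -/
theorem decomp (v : V) :
    B (v + B v b • a + B v a • b) a = 0 ∧ B (v + B v b • a + B v a • b) b = 0 := by
  simp [K.sp.alt, K.pair, K.pair', CharTwo.add_self_eq_zero]

/-- A partner inside the part orthogonal to the pair. -/
theorem exists_one {u : V} (hua : B u a = 0) (hub : B u b = 0) (hu : u ≠ 0) :
    ∃ z, B z a = 0 ∧ B z b = 0 ∧ B z u = 1 := by
  obtain ⟨z, hz⟩ := exists_pair_one K.sp hu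
  refine ⟨z + B z b • a + B z a • b, (K.decomp z).1, (K.decomp z).2, ?_⟩
  simp [hz, K.sp.symm a u, K.sp.symm b u, hua, hub]

end Frame

end Cfsg.Agent.H5.Sp2
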