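import Cfsg.Agent.H5.Sp2.Frame

/-!
# The scalar functions at two non-orthogonal points of the orbit

Without transvections: outside the case of `Sp_4(2)` no hyperbolic line carries three points of the orbit, and
then the two scalar functions are one quadratic form.
-/

set_option autoImplicit false
set_option linter.unusedSectionVars false
set_option linter.unusedVariables false

namespace Cfsg.Agent.H5.Sp2

variable {F : Type*} [Field F] [CharP F 2] [Finite F] {V : Type*} [AddCommGroup V] [Module F V]
  [FiniteDimensional F V]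
variable {B : V →ₗ[F] V →ₗ[F] F} {L : Subgroup (V ≃ₗ[F] V)} {a b : V}

theorem gel_pair (hB : IsSp B) {u p r : V} (hp : B p u = 0) (hr : B r u = 0) :
    gel B p u 0 * gel B r u 0 = gel B u (p + r) (B p r) := by
  rw [gel_swap hB (P := p) (u := u) (by rw [hB.symm, hp]), gel_swap hB (P := r) (u := u) (by rw [hB.symm, hr]), gel_mul hB hp hr, add_zero, zero_add]

theorem eq_zero_or_one (h2 : Nat.card F = 2) (t : F) : t = 0 ∨ t = 1 := by
  classical
  haveI : Fintype F := Fintype.ofFinite F
  rw [Nat.card_eq_fintype_card] at h2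
  by_contra h
  push Not at h
  have := Finset.card_le_univ ({0, 1, t} : Finset F)
  rw [Finset.card_insert_of_notMem (by simp [h.1.symm]), Finset.card_insert_of_notMem (by simp [h.2.symm]),
    Finset.card_singleton, h2] at this
  omega

theorem exists_ne_two (hq : Nat.card F ≠ 2) (t : F) : ∃ s : F, s ≠ 0 ∧ s ≠ t := by
  classical
  haveI : Fintype F := Fintype.ofFinite F
  by_contra h
  push Not at h
  have hs : (Finset.univ : Finset F) ⊆ {0, t} := fun s _ => by
    by_cases hs : s = 0
    · simp [hs]
    · simp [h s hs]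
  have := (Finset.card_le_card hs).trans Finset.card_le_two
  rw [Finset.card_univ, ← Nat.card_eq_fintype_card] at this
  have h1 : 1 < Nat.card F := Finite.one_lt_card
  omega

namespace Frame

variable (K : Frame B L a b)
include K

/-- Off the case of two elements a zero of one scalar function kills the line for the other. -/
theorem cc_line (hq : Nat.card F ≠ 2) {u : V} (hua : B u a = 0) (hub : B u b = 0) (hu : u ≠ 0)
    (hc : cc B L a u = 0) (t : F) : cc B L b (t • u) = 0 := by
  have hB := K.sp
  have hkey : ∀ t : F, cc B L b (t • u) ≠ 0 →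
      ∀ s : F, cc B L b (s • u) = s * s * (cc B L b (t • u))⁻¹ := by
    intro t hx s
    set x := cc B L b (t • u) with hxdef
    have hg1 : gel B a u 0 ∈ L := by have := K.left.cc_spec hua; rwa [hc] at this
    have htb : B (t • u) b = 0 := by simp [hub]
    have hg2 : gel B b (t • u) x ∈ L := K.right.cc_spec htb
    have hE : gel B a u 0 * (gel B b (t • u) x * gel B a u 0 * (gel B b (t • u) x)⁻¹) =
        gel B u (x • b) x := by
      have e1 : gel B b (t • u) x a = a + x • b + t • u := by
        rw [gel_apply hB htb]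
        simp [K.pair, hB.symm a u, hua]
        abel
      have e2 : gel B b (t • u) x u = u := by
        rw [gel_apply hB htb]
        simp [hub, hB.alt]
      have hru : B (a + x • b + t • u) u = 0 := by
        simp [hB.symm a u, hB.symm b u, hua, hub, hB.alt]
      rw [gel_conj hB _ (fun v w => gel_iso hB htb x v w) hua, e1, e2, gel_pair hB (by rw [hB.symm, hua]) hru]
      have ha : a + (a + x • b + t • u) = x • b + t • u := by
        linear_combination (norm := module) add_self_V (F := F) a
      rw [ha, gel_shift hB (by simp [hB.symm b u, hub])]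
      simp [hB.alt, K.pair, hB.symm a u, hua]
    have hEmem : gel B u (x • b) x ∈ L :=
      hE ▸ mul_mem hg1 (mul_mem (mul_mem hg2 hg1) (inv_mem hg2))
    have hxb : B (x • b) u = 0 := by simp [hB.symm b u, hub]
    have hEb : gel B u (x • b) x b = b := by
      rw [gel_apply hB hxb]
      simp [hB.symm b u, hub, hB.alt]
    obtain ⟨z, hza, hzb, hzu⟩ := K.exists_one hua hub hu
    have hz' : B ((s * x⁻¹) • z) b = 0 := by simp [hzb]
    have h := K.right.cc_inv K.noT' hEmem hEb hz'
    rw [gel_apply hB hxb] at h
    have e : (s * x⁻¹) • z + B ((s * x⁻¹) • z) u • (x • b) +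
        (B ((s * x⁻¹) • z) (x • b) + x * B ((s * x⁻¹) • z) u) • u = ((s * x⁻¹) • z + s • u) + s • b := by
      have e1 : x * (s * x⁻¹) = s := by field_simp
      simp only [map_smul, LinearMap.smul_apply, hzu, hzb, smul_eq_mul, mul_one, mul_zero, zero_add, e1,
        smul_smul, show s * x⁻¹ * x = s by field_simp]
      abel
    rw [e, K.right.cc_shift K.noT' (by simp [hzb, hub]),
      K.right.cc_add K.noT' hz' (by simp [hub]), add_assoc, add_eq_left] at h
    rw [CharTwo.add_eq_zero.1 h]
    simp [hzu]; ring
  by_contra hx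
  have ht0 : t ≠ 0 := fun e => hx (by rw [e, zero_smul, K.right.cc_zero K.noT'])
  obtain ⟨s, hs0, hst⟩ := exists_ne_two hq t
  have hfix : ∀ r : F, cc B L b (r • u) ≠ 0 → cc B L b (r • u) = r := fun r hr => by
    have := hkey r hr r
    field_simp at this
    exact CharTwo.sq_injective (by linear_combination this)
  have h1 := hkey t hx s
  have hs' : cc B L b (s • u) ≠ 0 := by
    rw [h1]; exact mul_ne_zero (mul_ne_zero hs0 hs0) (inv_ne_zero hx)
  rw [hfix t hx, hfix s hs'] at h1
  field_simp at h1
  exact hst (by linear_combination -h1)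

/-- A zero makes the two functions one quadratic form. -/
theorem quad_of_zero (hq : Nat.card F ≠ 2) {u : V} (hua : B u a = 0) (hub : B u b = 0) (hu : u ≠ 0)
    (hc : cc B L a u = 0) {z : V} (hza : B z a = 0) (hzb : B z b = 0) :
    cc B L b z = cc B L a z ∧ ∀ s : F, cc B L a (s • z) = s * s * cc B L a z := by
  have hB := K.sp
  have la : ∀ t : F, cc B L a (t • u) = 0 := by
    intro t
    refine K.symm.cc_line hq hub hua hu ?_ t
    have := K.cc_line hq hua hub hu hc 1
    rwa [one_smul] at this
  have lb : ∀ t : F, cc B L b (t • u) = 0 := K.cc_line hq hua hub hu hc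
  have main : ∀ z : V, B z a = 0 → B z b = 0 → B z u ≠ 0 →
      cc B L b z = cc B L a z ∧ ∀ s : F, cc B L a (s • z) = s * s * cc B L a z := by
    intro z hza hzb hzu
    set ρ := cc B L a z / B z u with hρ
    set z' := z + ρ • u with hz'
    have hca : cc B L a z' = 0 := by
      rw [hz', K.left.cc_add K.noT hza (by simp [hua]), la, add_zero, map_smul, smul_eq_mul, hρ,
        div_mul_cancel₀ _ hzu, CharTwo.add_self_eq_zero]
    have hz'a : B z' a = 0 := by simp [hz', hza, hua]
    have hz'b : B z' b = 0 := by simp [hz', hzb, hub]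
    have hz'0 : z' ≠ 0 := fun e => hzu (by
      rw [show z = z' + ρ • u by rw [hz']; linear_combination (norm := module) -ρ • add_self_V (F := F) u, e]
      simp [hB.alt])
    have hval : B z' u = B z u := by simp [hz', hB.alt]
    have hz : z = z' + ρ • u := by rw [hz']; linear_combination (norm := module) -ρ • add_self_V (F := F) u
    have la' : ∀ t : F, cc B L a (t • z') = 0 := by
      intro t
      refine K.symm.cc_line hq hz'b hz'a hz'0 ?_ t
      have := K.cc_line hq hz'a hz'b hz'0 hca 1
      rwa [one_smul] at this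
    have lb' := K.cc_line hq hz'a hz'b hz'0 hca
    have ea : cc B L a z = ρ * B z u := by rw [hρ, div_mul_cancel₀ _ hzu]
    refine ⟨?_, fun s => ?_⟩
    · conv_lhs => rw [hz]
      rw [K.right.cc_add K.noT' hz'b (by simp [hub]), lb, ← one_smul F z', lb', zero_add, zero_add, one_smul,
        map_smul, smul_eq_mul, hval, ea]
    · conv_lhs => rw [hz]
      rw [smul_add, smul_smul, K.left.cc_add K.noT (by simp [hz'a]) (by simp [hua]), la, la', zero_add, zero_add,
        map_smul, map_smul, LinearMap.smul_apply, smul_eq_mul, smul_eq_mul, hval, ea]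
      ring
  by_cases hzu : B z u = 0
  swap
  · exact main z hza hzb hzu
  obtain ⟨z1, h1a, h1b, h1u⟩ := K.exists_one hua hub hu
  have h2a : B (z + z1) a = 0 := by simp [hza, h1a]
  have h2b : B (z + z1) b = 0 := by simp [hzb, h1b]
  obtain ⟨p1, p2⟩ := main z1 h1a h1b (by rw [h1u]; exact one_ne_zero)
  obtain ⟨r1, r2⟩ := main (z + z1) h2a h2b (by simp [hzu, h1u])
  have hz : z = (z + z1) + z1 := by linear_combination (norm := module) -add_self_V (F := F) z1
  refine ⟨?_, fun s => ?_⟩
  · rw [hz, K.left.cc_add K.noT h2a h1a, K.right.cc_add K.noT' h2b h1b, r1, p1]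
  · conv_lhs => rw [hz]
    conv_rhs => rw [hz]
    rw [smul_add, K.left.cc_add K.noT (by rw [map_smul, LinearMap.smul_apply, h2a, smul_zero]) (by simp [h1a]), r2, p2,
      K.left.cc_add K.noT h2a h1a, map_smul, map_smul, LinearMap.smul_apply, smul_eq_mul, smul_eq_mul]
    ring

/-- Without zeros, no other point of the orbit is orthogonal. -/
theorem mem_line_of_pt (hq : Nat.card F ≠ 2)
    (hno : ∀ u, B u a = 0 → B u b = 0 → cc B L a u = 0 → u = 0) {P : V} (hP : Pt L a P) (hPa : B P a = 0) :
    P ∈ Submodule.span F {a} := by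
  have hB := K.sp
  set ρ := B P b with hρdef
  set w := P + ρ • a with hw
  have hwa : B w a = 0 := by simp [hw, hPa, hB.alt]
  have hwb : B w b = 0 := by simp [hw, ← hρdef, K.pair, CharTwo.add_self_eq_zero]
  by_contra hPs
  have hw0 : w ≠ 0 := fun e => hPs (Submodule.mem_span_singleton.2 ⟨ρ, by
    linear_combination (norm := module) (-1 : F) • (e.symm.trans hw) + -add_self_V (F := F) P⟩)
  obtain ⟨z, hza, hzP, hzw⟩ : ∃ z, B z a = 1 ∧ B z P = 0 ∧ B z w = ρ := by
    obtain ⟨z1, h1a, h1b, h1w⟩ := K.exists_one hwa hwb hw0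
    have hbw : B b w = 0 := by rw [hB.symm, hwb]
    refine ⟨b + ρ • z1, by simp [K.pair', h1a], ?_, by simp [hbw, h1w]⟩
    have hP' : P = w + ρ • a := by rw [hw]; linear_combination (norm := module) -ρ • add_self_V (F := F) a
    rw [hP']
    simp [hbw, K.pair', h1a, h1w, CharTwo.add_self_eq_zero]
  -- the line of `a` carries the scalars with a single inverse parameter
  have key2 : ∀ t : F, t ≠ 0 → ∀ r : F, r ≠ 0 →
      cc B L P (r • a) = r * r * (cc B L a (t • w))⁻¹ := by
    intro t ht r hr
    set x := cc B L a (t • w) with hx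
    have hx0 : x ≠ 0 := fun e => smul_ne_zero ht hw0 (hno _ (by simp [hwa]) (by simp [hwb]) e)
    have htw : B (t • w) a = 0 := by simp [hwa]
    have hg : gel B a (t • w) x ∈ L := K.left.cc_spec htw
    have hgP : gel B a (t • w) x P = P := by
      rw [gel_apply hB htw, hPa]
      simp [hw, hB.alt, hPa]
    set φ := r * x⁻¹
    have hzP' : B (φ • z) P = 0 := by simp [hzP]
    have h := (K.left.of_pt hP).cc_inv (K.left.noT hP K.noT) hg hgP hzP'
    rw [gel_apply hB htw] at h
    have e : φ • z + B (φ • z) a • (t • w) + (B (φ • z) (t • w) + x * B (φ • z) a) • a =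
        (φ • z + r • a) + (φ * t) • P := by
      simp only [map_smul, LinearMap.smul_apply, smul_eq_mul, hza, hzw, mul_one,
        show x * φ = r by simp only [φ]; field_simp]
      rw [hw]
      linear_combination (norm := module) (φ * t * ρ) • add_self_V (F := F) a
    rw [e, (K.left.of_pt hP).cc_shift (K.left.noT hP K.noT) (by simp [hzP, hB.symm a P, hPa]),
      (K.left.of_pt hP).cc_add (K.left.noT hP K.noT) hzP' (by simp [hB.symm a P, hPa]), add_assoc,
      add_eq_left] at h
    rw [CharTwo.add_eq_zero.1 h]
    simp only [map_smul, LinearMap.smul_apply, smul_eq_mul, hza, φ]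
    ring
  obtain ⟨t, ht0, ht1⟩ := exists_ne_two hq 1
  have h1 := key2 1 one_ne_zero 1 one_ne_zero
  rw [key2 t ht0 1 one_ne_zero, one_smul] at h1
  simp only [one_mul, inv_inj] at h1
  have h2 : cc B L a (t • w + w) = 0 := by
    rw [K.left.cc_add K.noT (by simp [hwa]) hwa, h1]
    simp [hB.alt, CharTwo.add_self_eq_zero]
  refine ht1 (CharTwo.add_eq_zero.1 ?_)
  have := hno _ (by simp [hwa]) (by simp [hwb]) h2
  rw [show t • w + w = (t + 1) • w by rw [add_smul, one_smul]] at this
  exact (smul_eq_zero.1 this).resolve_right hw0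

end Frame

end Cfsg.Agent.H5.Sp2
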