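import Cfsg.Agent.H5.Sp2.Scalars

/-!
# No hyperbolic line carries three points of the orbit
-/

set_option autoImplicit false
set_option linter.unusedSectionVars false
set_option linter.unusedVariables false

namespace Cfsg.Agent.H5.Sp2

variable {F : Type*} [Field F] [CharP F 2] [Finite F] {V : Type*} [AddCommGroup V] [Module F V]
  [FiniteDimensional F V]
variable {B : V →ₗ[F] V →ₗ[F] F} {L : Subgroup (V ≃ₗ[F] V)} {a b : V}

namespace Frame

variable (K : Frame B L a b)
include K

theorem exists_perp_vec (hdim : 4 ≤ Module.finrank F V) :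
    ∃ z, B z a = 0 ∧ B z b = 0 ∧ z ≠ 0 := by
  let T : V →ₗ[F] F × F := (B.flip a).prod (B.flip b)
  have hker : LinearMap.ker T ≠ ⊥ := fun h => by
    have h1 := LinearMap.finrank_le_finrank_of_injective (LinearMap.ker_eq_bot.1 h)
    rw [Module.finrank_prod, Module.finrank_self] at h1
    omega
  obtain ⟨z, hz, hz0⟩ := Submodule.exists_mem_ne_zero_of_ne_bot hker
  simp [T, LinearMap.prod_apply] at hz
  exact ⟨z, hz.1, hz.2, hz0⟩

theorem third_frame {p : V} (hp : Pt L a p) (hap : B a p = 1) : Frame B L a p := ⟨K.left, hp, hap, K.noT⟩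

/-- The three scalar functions have no common zero. -/
theorem not_common (hp : Pt L a (a + b)) {u : V} (hua : B u a = 0) (hub : B u b = 0) (hu : u ≠ 0)
    (ha : cc B L a u = 0) (hb : cc B L b u = 0) (hc : cc B L (a + b) u = 0) : False := by
  have hB := K.sp
  have hup : B u (a + b) = 0 := by rw [map_add, hua, hub, add_zero]
  have h1 := K.left.cc_spec hua
  have h2 := K.right.cc_spec hub
  have h3 := (K.left.of_pt hp).cc_spec hup
  rw [ha] at h1
  rw [hb] at h2
  rw [hc] at h3
  have hua' : B a u = 0 := by rw [hB.symm, hua]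
  have hub' : B b u = 0 := by rw [hB.symm, hub]
  have ht : gel B u 0 1 ∈ L := by
    have h := mul_mem (mul_mem h1 h2) h3
    rw [gel_pair hB hua' hub', gel_swap hB (P := a + b) (u := u) hup,
      gel_mul hB (by simp [hua', hub']) (by simp [hua', hub']), K.pair, hB.alt, add_zero, add_zero,
      add_self_V (F := F)] at h
    exact h
  obtain ⟨z, hza, hzb, hzu⟩ := K.exists_one hua hub hu
  have hg := K.right.cc_spec hzb
  have hmove : ∀ {g : V ≃ₗ[F] V}, g ∈ L → ∀ {v : V}, gel B v 0 1 ∈ L → gel B (g v) 0 1 ∈ L := by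
    intro g hg v hv
    have := gel_conj hB g (K.left.iso g hg) (P := v) (u := 0) (by simp) 1
    rw [map_zero] at this
    rw [← this]
    exact mul_mem (mul_mem hg hv) (inv_mem hg)
  have h4 := hmove hg ht
  rw [gel_apply hB hzb, hub, zero_smul, add_zero, mul_zero, add_zero, hB.symm u z, hzu, one_smul] at h4
  have h5 := hmove h1 h4
  rw [gel_apply hB hua] at h5
  have e : u + b + B (u + b) a • u + (B (u + b) u + 0 * B (u + b) a) • a = b := by
    simp only [map_add, LinearMap.add_apply, hua, K.pair', hB.alt, hub', zero_mul, add_zero, zero_add, zero_smul,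
      one_smul]
    linear_combination (norm := module) add_self_V (F := F) u
  rw [e] at h5
  exact one_ne_zero (K.noT' 1 h5)

/-- With two elements in the field and enough dimension, zeros are shared. -/
theorem cc_two (h2 : Nat.card F = 2) (hdim : 6 ≤ Module.finrank F V) {u : V} (hua : B u a = 0)
    (hub : B u b = 0) (hu : u ≠ 0) (hc : cc B L a u = 0) : cc B L b u = 0 := by
  classical
  have hB := K.sp
  refine (eq_zero_or_one h2 _).resolve_right fun hcb => ?_
  let T : V →ₗ[F] F × F × F := (B.flip a).prod ((B.flip b).prod (B.flip u))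
  obtain ⟨y, hy, hyu⟩ : ∃ y ∈ LinearMap.ker T, y ∉ Submodule.span F {u} := by
    by_contra hall
    push Not at hall
    have h1 := (Submodule.finrank_mono (show LinearMap.ker T ≤ Submodule.span F {u} from hall)).trans_eq
      (finrank_span_singleton hu)
    have h3 := LinearMap.finrank_range_add_finrank_ker T
    have h4 := Submodule.finrank_le (LinearMap.range T)
    rw [Module.finrank_prod, Module.finrank_prod, Module.finrank_self] at h4
    omega
  simp [T, LinearMap.prod_apply] at hy
  obtain ⟨hya, hyb, hyu'⟩ := hy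
  set w := y + cc B L b y • u with hw
  have hwa : B w a = 0 := by simp [hw, hya, hua]
  have hwb : B w b = 0 := by simp [hw, hyb, hub]
  have hwu : B w u = 0 := by simp [hw, hyu', hB.alt]
  have hcw : cc B L b w = 0 := by
    rw [hw, K.right.cc_add K.noT' hyb (by simp [hub]), map_smul, hyu', smul_zero, add_zero]
    rcases eq_zero_or_one h2 (cc B L b y) with h | h <;> rw [h]
    · rw [zero_smul, K.right.cc_zero K.noT', add_zero]
    · rw [one_smul, hcb, CharTwo.add_self_eq_zero]
  have hg1 : gel B a u 0 ∈ L := by have := K.left.cc_spec hua; rwa [hc] at this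
  have hg2 : gel B b w 0 ∈ L := by have := K.right.cc_spec hwb; rwa [hcw] at this
  have haw : B a w = 0 := by rw [hB.symm, hwa]
  have huw : B u w = 0 := by rw [hB.symm, hwu]
  have hau : B a u = 0 := by rw [hB.symm, hua]
  have e1 : gel B b w 0 a = a + w := by rw [gel_apply hB hwb]; simp [K.pair, haw]
  have e2 : gel B b w 0 u = u := by rw [gel_apply hB hwb]; simp [hub, huw]
  have hE : gel B a u 0 * (gel B b w 0 * gel B a u 0 * (gel B b w 0)⁻¹) = gel B u w 0 := by
    rw [gel_conj hB _ (fun v x => gel_iso hB hwb 0 v x) hua, e1, e2, gel_pair hB hau (by simp [hau, hwu])]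
    simp only [map_add, hB.alt, haw, add_zero]
    congr 1
    linear_combination (norm := module) add_self_V (F := F) a
  have hEmem : gel B u w 0 ∈ L := hE ▸ mul_mem hg1 (mul_mem (mul_mem hg2 hg1) (inv_mem hg2))
  have hbw : B b w = 0 := by rw [hB.symm, hwb]
  have hbu : B b u = 0 := by rw [hB.symm, hub]
  have hEb : gel B u w 0 b = b := by rw [gel_apply hB hwu]; simp [hbu, hbw]
  have hwS : w ∉ Submodule.span F {u, b} := by
    intro h
    obtain ⟨α, β, hαβ⟩ := Submodule.mem_span_pair.1 h
    have hβ : β = 0 := by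
      have := hwa
      rw [← hαβ] at this
      simpa [hua, K.pair'] using this
    refine hyu (Submodule.mem_span_singleton.2 ⟨α + cc B L b y, ?_⟩)
    rw [hβ, zero_smul, add_zero, hw] at hαβ
    rw [add_smul, hαβ]
    linear_combination (norm := module) cc B L b y • add_self_V (F := F) u
  obtain ⟨φ, hφw, hφS⟩ := Submodule.exists_dual_map_eq_bot_of_notMem hwS inferInstance
  obtain ⟨z, hz⟩ := exists_dual hB ((φ w)⁻¹ • φ)
  have hz0 : ∀ x ∈ Submodule.span F {u, b}, B x z = 0 := fun x hx => by
    have : φ x = 0 := by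
      rw [← Submodule.mem_bot (R := F), ← hφS]
      exact Submodule.mem_map_of_mem hx
    rw [hz, LinearMap.smul_apply, this, smul_zero]
  have hzb : B z b = 0 := by rw [hB.symm]; exact hz0 b (Submodule.subset_span (Or.inr rfl))
  have hzu : B z u = 0 := by rw [hB.symm]; exact hz0 u (Submodule.subset_span (Or.inl rfl))
  have hzw : B z w = 1 := by rw [hB.symm, hz, LinearMap.smul_apply, smul_eq_mul, inv_mul_cancel₀ hφw]
  have h := K.right.cc_inv K.noT' hEmem hEb hzb
  rw [gel_apply hB hwu, hzu, hzw, zero_smul, add_zero, mul_zero, add_zero, one_smul,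
    K.right.cc_add K.noT' hzb hub, hzu, add_zero, hcb, add_eq_left] at h
  exact one_ne_zero h

/-- No third point of the orbit on the line of `a` and `b`. -/
theorem not_pt_add (hq : Nat.card F ≠ 2 ∨ 6 ≤ Module.finrank F V) (hdim : 4 ≤ Module.finrank F V) :
    ¬ Pt L a (a + b) := by
  classical
  intro hp
  have hB := K.sp
  have hap : B a (a + b) = 1 := by rw [map_add, hB.alt, K.pair, zero_add]
  have K' := K.third_frame hp hap
  by_cases hex : ∃ u, B u a = 0 ∧ B u b = 0 ∧ u ≠ 0 ∧ cc B L a u = 0
  · obtain ⟨u, hua, hub, hu, hc⟩ := hex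
    have hup : B u (a + b) = 0 := by rw [map_add, hua, hub, add_zero]
    by_cases h2 : Nat.card F = 2
    · have hd := hq.resolve_left (not_not.2 h2)
      exact K.not_common hp hua hub hu hc (K.cc_two h2 hd hua hub hu hc) (K'.cc_two h2 hd hua hup hu hc)
    · have e1 := K.cc_line h2 hua hub hu hc 1
      have e2 := K'.cc_line h2 hua hup hu hc 1
      rw [one_smul] at e1 e2
      exact K.not_common hp hua hub hu hc e1 e2
  push Not at hex
  have hno : ∀ u, B u a = 0 → B u b = 0 → cc B L a u = 0 → u = 0 := fun u h1 h2 h3 => by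
    by_contra h0
    exact hex u h1 h2 h0 h3
  by_cases h2 : Nat.card F = 2
  · have hd := hq.resolve_left (not_not.2 h2)
    obtain ⟨z1, h1a, h1b, h10⟩ := K.exists_perp_vec hdim
    let T : V →ₗ[F] F × F × F := (B.flip a).prod ((B.flip b).prod (B.flip z1))
    obtain ⟨z2, hz2, hz20⟩ : ∃ z ∈ LinearMap.ker T, z ∉ Submodule.span F {z1} := by
      by_contra hall
      push Not at hall
      have h1 := (Submodule.finrank_mono (show LinearMap.ker T ≤ Submodule.span F {z1} from hall)).trans_eq
        (finrank_span_singleton h10)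
      have h3 := LinearMap.finrank_range_add_finrank_ker T
      have h4 := Submodule.finrank_le (LinearMap.range T)
      rw [Module.finrank_prod, Module.finrank_prod, Module.finrank_self] at h4
      omega
    simp [T, LinearMap.prod_apply] at hz2
    obtain ⟨h2a, h2b, h21⟩ := hz2
    have e1 := (eq_zero_or_one h2 (cc B L a z1)).resolve_left fun h => h10 (hno z1 h1a h1b h)
    have e2 := (eq_zero_or_one h2 (cc B L a z2)).resolve_left fun h =>
      hz20 (hno z2 h2a h2b h ▸ zero_mem _)
    have e3 : cc B L a (z1 + z2) = 0 := by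
      rw [K.left.cc_add K.noT h1a h2a, e1, e2, hB.symm, h21, add_zero, CharTwo.add_self_eq_zero]
    have := hno (z1 + z2) (by simp [h1a, h2a]) (by simp [h1b, h2b]) e3
    refine hz20 (Submodule.mem_span_singleton.2 ⟨1, ?_⟩)
    linear_combination (norm := module) this + -add_self_V (F := F) z2
  · obtain ⟨u0, hua, hub, hu⟩ := K.exists_perp_vec hdim
    obtain ⟨t, ht⟩ : ∃ t : F, cc B L a (t • u0) = 1 := by
      refine Finite.surjective_of_injective (fun s t hst => ?_) 1
      have h := hno ((s + t) • u0) (by simp [hua]) (by simp [hub]) (by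
        rw [add_smul, K.left.cc_add K.noT (by simp [hua]) (by simp [hua])]
        rw [hst]
        simp [hB.alt, CharTwo.add_self_eq_zero])
      exact CharTwo.add_eq_zero.1 ((smul_eq_zero.1 h).resolve_right hu)
    set u := t • u0
    have hua' : B u a = 0 := by simp [u, hua]
    have hub' : B u b = 0 := by simp [u, hub]
    have hg : gel B a u 1 ∈ L := by have := K.left.cc_spec hua'; rwa [ht] at this
    have hu' : u ≠ 0 := fun e => by
      rw [e, K.left.cc_zero K.noT] at ht
      exact zero_ne_one ht
    have hv := K.pt.map hg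
    rw [gel_apply hB hua', K.pair', hB.symm b u, hub', one_smul, zero_add, mul_one, one_smul] at hv
    have Kp : Frame B L (a + b) b :=
      ⟨K.left.of_pt hp, hp.symm.trans K.pt, by simp [K.pair, hB.alt], K.left.noT hp K.noT⟩
    have hA : ∀ w, B w a = 0 → cc B L a w = 0 → w ∈ Submodule.span F {a} := by
      intro w hwa hcw
      have := hno (w + B w b • a) (by simp [hwa, hB.alt]) (by simp [K.pair, CharTwo.add_self_eq_zero])
        (by rw [K.left.cc_shift K.noT hwa, hcw])
      refine Submodule.mem_span_singleton.2 ⟨B w b, ?_⟩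
      linear_combination (norm := module) this + -add_self_V (F := F) w
    have hnop : ∀ w, B w (a + b) = 0 → B w b = 0 → cc B L (a + b) w = 0 → w = 0 := by
      intro w hwp hwb hcw
      obtain ⟨g, hg, μ, hμ, hgp⟩ := hp
      have hP : Pt L a (g a) := (Pt.self a).map hg
      rw [hgp] at hwp hcw
      rw [map_smul, smul_eq_mul, mul_eq_zero, or_iff_right hμ] at hwp
      have h1 := (K.left.of_pt hP).cc_smul (K.left.noT hP K.noT) hμ hwp
      rw [hcw, mul_zero] at h1
      obtain ⟨x, hx⟩ : ∃ x, g x = μ • w := g.surjective _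
      have hxa : B x a = 0 := by
        rw [← K.left.iso g hg, hx, map_smul, LinearMap.smul_apply, hwp, smul_zero]
      rw [← hx, K.left.cc_map K.noT hg hxa] at h1
      obtain ⟨r, hr⟩ := Submodule.mem_span_singleton.1 (hA x hxa h1.symm)
      have hw : μ • w = r • g a := by rw [← hx, ← hr, map_smul]
      have hgb : μ * B (g a) b = 1 := by
        have : B (a + b) b = 1 := Kp.pair
        rw [hgp, map_smul, LinearMap.smul_apply] at this
        exact this
      have hr0 : r = 0 := by
        have h := congrArg (fun v => B v b) hw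
        simp [hwb] at h
        exact h.resolve_right fun e => by simp [e] at hgb
      rw [hr0, zero_smul] at hw
      exact (smul_eq_zero.1 hw).resolve_left hμ
    obtain ⟨r, hr⟩ := Submodule.mem_span_singleton.1
      (Kp.mem_line_of_pt h2 hnop (hp.symm.trans hv) (by
        simp [hB.alt, K.pair, K.pair', hB.symm a u, hB.symm b u, hua', hub', CharTwo.add_self_eq_zero]))
    obtain ⟨z, hza, hzb, hzu⟩ := K.exists_one hua' hub' hu'
    have := congrArg (B z) hr
    simp [hza, hzb, hzu] at this

end Frame

end Cfsg.Agent.H5.Sp2
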