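import Cfsg.Agent.H5.Sp2.Frame

/-!
# A transvection at a point of the orbit gives all transvections
-/

set_option autoImplicit false
set_option linter.unusedSectionVars false
set_option linter.unusedVariables false

namespace Cfsg.Agent.H5.Sp2

variable {F : Type*} [Field F] [CharP F 2] [Finite F] {V : Type*} [AddCommGroup V] [Module F V]
  [FiniteDimensional F V]
variable {B : V →ₗ[F] V →ₗ[F] F} {L : Subgroup (V ≃ₗ[F] V)} {a b : V}

/-- The vectors of the transvections with scalar one in `L`. -/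
def Cen (B : V →ₗ[F] V →ₗ[F] F) (L : Subgroup (V ≃ₗ[F] V)) : Set V := {v | gel B v 0 1 ∈ L}

/-- The vectors with the full transvection group in `L`. -/
def Full (B : V →ₗ[F] V →ₗ[F] F) (L : Subgroup (V ≃ₗ[F] V)) : Set V := {v | ∀ μ : F, μ • v ∈ Cen B L}

namespace Hyp

variable (H : Hyp B L a)
include H

theorem cen_iff {v : V} (μ : F) : μ • v ∈ Cen B L ↔ gel B v 0 (μ * μ) ∈ L := by
  show gel B (μ • v) 0 1 ∈ L ↔ _
  rw [gel_smul H.sp (by simp), smul_zero, mul_one]

theorem cen_map {g : V ≃ₗ[F] V} (hg : g ∈ L) {v : V} (hv : v ∈ Cen B L) : g v ∈ Cen B L := by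
  show gel B (g v) 0 1 ∈ L
  have := gel_conj H.sp g (H.iso g hg) (P := v) (u := 0) (by simp) 1
  rw [map_zero] at this
  rw [← this]
  exact mul_mem (mul_mem hg hv) (inv_mem hg)

theorem cen_pair {v w : V} (hv : v ∈ Cen B L) (hw : w ∈ Cen B L) : w + B w v • v ∈ Cen B L := by
  have := H.cen_map hv hw
  rwa [gel_zero_apply H.sp, one_mul] at this

theorem full_iff {v : V} : v ∈ Full B L ↔ ∀ x : F, gel B v 0 x ∈ L := by
  refine ⟨fun h x => ?_, fun h μ => (H.cen_iff μ).2 (h _)⟩
  obtain ⟨y, rfl⟩ := exists_sq x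
  exact (H.cen_iff y).1 (h y)

theorem full_map {g : V ≃ₗ[F] V} (hg : g ∈ L) {v : V} (hv : v ∈ Full B L) : g v ∈ Full B L := fun μ => by
  rw [← map_smul]; exact H.cen_map hg (hv μ)

theorem full_smul {v : V} (hv : v ∈ Full B L) (r : F) : r • v ∈ Full B L := fun μ => by
  rw [smul_smul]; exact hv _

theorem full_pair {v w : V} (hv : v ∈ Full B L) (hw : w ∈ Full B L) (hvw : B w v ≠ 0) (r : F) :
    r • v + w ∈ Full B L := fun μ => by
  obtain ⟨s, hs⟩ := exists_sq (r / B w v)
  have h := H.cen_pair (hv s) (hw μ)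
  have e : μ • w + B (μ • w) (s • v) • (s • v) = μ • (r • v + w) := by
    have hr : r = s * s * B w v := by rw [hs, div_mul_cancel₀ _ hvw]
    rw [map_smul, map_smul, LinearMap.smul_apply, smul_eq_mul, smul_eq_mul, hr]
    module
  rwa [e] at h

/-- The centres on the line of `b`. -/
theorem exists_zero_scalar (hdim : 4 ≤ Module.finrank F V) {b : V} (hb : Pt L a b) (hab : B a b = 1) {x : F}
    (hx0 : x ≠ 0) (hx : gel B b 0 x ∈ L) :
    ∃ w, B w a = 0 ∧ B w b = 0 ∧ w ≠ 0 ∧ gel B b w 0 ∈ L := by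
  classical
  have hba : B b a = 1 := by rw [H.sp.symm, hab]
  obtain ⟨z, hz, hz0⟩ : ∃ z, (B z a = 0 ∧ B z b = 0) ∧ z ≠ 0 := by
    let T : V →ₗ[F] F × F := (B.flip a).prod (B.flip b)
    have hker : LinearMap.ker T ≠ ⊥ := fun h => by
      have h1 := LinearMap.finrank_le_finrank_of_injective (LinearMap.ker_eq_bot.1 h)
      rw [Module.finrank_prod, Module.finrank_self] at h1
      omega
    obtain ⟨z, hz, hz0⟩ := Submodule.exists_mem_ne_zero_of_ne_bot hker
    exact ⟨z, by simpa [T, LinearMap.prod_apply] using hz, hz0⟩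
  have Hb := H.of_pt hb
  let A : AddSubgroup F :=
    { carrier := {y | gel B b 0 y ∈ L}
      zero_mem' := by show gel B b 0 0 ∈ L; rw [gel_zero H.sp]; exact one_mem _
      add_mem' := fun {p r} hp hr => by
        show gel B b 0 (p + r) ∈ L
        have := mul_mem (show gel B b 0 p ∈ L from hp) (show gel B b 0 r ∈ L from hr)
        rwa [gel_mul H.sp (by simp) (by simp), add_zero, map_zero, add_zero] at this
      neg_mem' := fun {p} hp => by rwa [CharTwo.neg_eq] }
  have hlt : Nat.card (F ⧸ A) < Nat.card F := by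
    rw [AddSubgroup.card_eq_card_quotient_mul_card_addSubgroup A]
    have h1 : 1 < Nat.card A := by
      haveI : Nontrivial A := ⟨⟨x, hx⟩, 0, fun e => hx0 (congrArg Subtype.val e)⟩
      exact Finite.one_lt_card
    have h2 : 0 < Nat.card (F ⧸ A) := Nat.card_pos
    exact lt_mul_of_one_lt_right h2 h1
  have hroot : ∀ t : F, ∃ y, gel B b (t • z) y ∈ L := fun t => Hb.root _ (by simp [hz.2])
  choose y hy using hroot
  obtain ⟨t, s, hts, he⟩ : ∃ t s, t ≠ s ∧ (QuotientAddGroup.mk (y t) : F ⧸ A) = QuotientAddGroup.mk (y s) := by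
    by_contra hall
    push Not at hall
    have := Nat.card_le_card_of_injective (fun t : F => (QuotientAddGroup.mk (y t) : F ⧸ A)) fun t s h => by
      by_contra hne
      exact hall t s hne h
    omega
  have hA : y t + y s ∈ A := by
    rw [QuotientAddGroup.eq] at he
    rwa [CharTwo.neg_eq] at he
  refine ⟨(t + s) • z, by simp [hz.1], by simp [hz.2], smul_ne_zero (fun e => hts (CharTwo.add_eq_zero.1 e)) hz0,
    ?_⟩
  have h := mul_mem (mul_mem (hy t) (hy s)) (show gel B b 0 (y t + y s) ∈ L from hA)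
  rw [gel_mul H.sp (by simp [hz.2]) (by simp [hz.2]), gel_mul H.sp (by simp [hz.2]) (by simp), add_zero,
    ← add_smul] at h
  convert h using 2
  simp [H.sp.alt, CharTwo.add_self_eq_zero]

/-- A transvection at `a` with scalar one gives all. -/
theorem cen_all (hdim : 4 ≤ Module.finrank F V) (ha : a ∈ Cen B L) : ∀ v, v ≠ 0 → v ∈ Full B L := by
  obtain ⟨b, hb, hab⟩ := H.exists_partner
  have hba : B b a = 1 := by rw [H.sp.symm, hab]
  obtain ⟨x, hx0, hx⟩ : ∃ x : F, x ≠ 0 ∧ gel B b 0 x ∈ L := by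
    obtain ⟨g, hg, μ, hμ, rfl⟩ := hb
    refine ⟨(μ⁻¹) * μ⁻¹, mul_ne_zero (inv_ne_zero hμ) (inv_ne_zero hμ), ?_⟩
    rw [gel_smul H.sp (by simp), smul_zero, show μ * μ * (μ⁻¹ * μ⁻¹) = 1 by field_simp]
    exact H.cen_map hg ha
  obtain ⟨w, hwa, hwb, hw0, hgw⟩ := H.exists_zero_scalar hdim hb hab hx0 hx
  have Hb := H.of_pt hb
  obtain ⟨z1, hz1a, hz1b, hz1⟩ : ∃ z, B z a = 0 ∧ B z b = 0 ∧ B z w = 1 := by
    obtain ⟨z, hz⟩ := exists_pair_one H.sp hw0
    refine ⟨z + B z b • a + B z a • b, ?_, ?_, ?_⟩ <;>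
      simp [hz, H.sp.alt, hab, hba, H.sp.symm a w, H.sp.symm b w, hwa, hwb, CharTwo.add_self_eq_zero]
  have hw1 : B w z1 = 1 := by rw [H.sp.symm, hz1]
  -- `w + ρ a` and `w + ρ b`
  have haw : a + w ∈ Cen B L := by
    have := H.cen_map hgw ha
    rwa [gel_apply H.sp hwb, hab, one_smul, H.sp.symm a w, hwa, zero_mul, zero_add, zero_smul, add_zero] at this
  have hwA : ∀ ρ : F, w + ρ • a ∈ Cen B L := fun ρ => by
    have hza : B ((ρ + 1) • z1) a = 0 := by simp [hz1a]
    obtain ⟨y, hy⟩ := H.root _ hza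
    have := H.cen_map hy haw
    rw [gel_apply H.sp hza] at this
    convert this using 1
    simp only [map_add, map_smul, LinearMap.add_apply, smul_eq_mul, H.sp.alt, hwa, hw1, H.sp.symm a z1,
      hz1a, mul_zero, add_zero, zero_add, mul_one]
    linear_combination (norm := module) -add_self_V (F := F) a
  have hw : w ∈ Cen B L := by simpa using hwA 0
  have hwB : ∀ ρ : F, w + ρ • b ∈ Cen B L := fun ρ => by
    have hzb : B (ρ • z1) b = 0 := by simp [hz1b]
    obtain ⟨y, hy⟩ := Hb.root _ hzb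
    have := H.cen_map hy hw
    rw [gel_apply H.sp hzb] at this
    convert this using 1
    simp only [map_smul, smul_eq_mul, hwb, hw1, mul_zero, add_zero, mul_one, zero_smul]
  have hmid : ∀ r : F, r ≠ 0 → r • a + r⁻¹ • b ∈ Cen B L := fun r hr => by
    have h := H.cen_pair (hwA r) (hwB r⁻¹)
    have e : B (w + r⁻¹ • b) (w + r • a) = 1 := by
      simp [H.sp.alt, H.sp.symm b w, hwa, hwb, hba, hr]
    rw [e, one_smul] at h
    convert h using 1
    linear_combination (norm := module) -add_self_V (F := F) w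
  have hbl : ∀ r : F, r ≠ 0 → (r⁻¹ * r⁻¹) • b ∈ Cen B L := fun r hr => by
    have h := H.cen_pair (hmid r hr) ha
    have e : B a (r • a + r⁻¹ • b) = r⁻¹ := by simp [H.sp.alt, hab]
    rw [e] at h
    convert h using 1
    rw [smul_add, smul_smul, smul_smul, inv_mul_cancel₀ hr, one_smul]
    linear_combination (norm := module) -add_self_V (F := F) a
  have hbfull : b ∈ Full B L := fun μ => by
    rcases eq_or_ne μ 0 with rfl | hμ
    · rw [zero_smul]; show gel B 0 0 1 ∈ L
      rw [show gel B (0 : V) 0 1 = 1 from LinearEquiv.ext fun v => by simp [gel_zero_apply H.sp]]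
      exact one_mem _
    obtain ⟨s, hs⟩ := exists_sq μ⁻¹
    have hs0 : s ≠ 0 := fun e => inv_ne_zero hμ (by rw [← hs, e, zero_mul])
    have := hbl s hs0
    rwa [← mul_inv, hs, inv_inv] at this
  have hafull : a ∈ Full B L := fun μ => by
    rcases eq_or_ne μ 0 with rfl | hμ
    · simpa using hbfull 0
    obtain ⟨r, hr⟩ := exists_sq μ
    have hr0 : r ≠ 0 := fun e => hμ (by rw [← hr, e, zero_mul])
    have h := H.cen_pair (hmid r hr0) (hbfull 1)
    have e : B ((1 : F) • b) (r • a + r⁻¹ • b) = r := by simp [H.sp.alt, hba]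
    rw [e] at h
    convert h using 1
    rw [← hr, smul_add, smul_smul, smul_smul, mul_inv_cancel₀ hr0]
    linear_combination (norm := module) -add_self_V (F := F) b
  -- the vectors off the perp of `a`
  have hoff : ∀ v, B v a ≠ 0 → v ∈ Full B L := by
    intro v hv
    set k := B v a
    set y := k⁻¹ • v with hy
    have hya : B y a = 1 := by rw [hy, map_smul, LinearMap.smul_apply, smul_eq_mul, inv_mul_cancel₀ hv]
    set u := y + B y b • a + b with hu
    have hua : B u a = 0 := by simp [hu, hya, hba, H.sp.alt, CharTwo.add_self_eq_zero]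
    have hbu : B b u = 0 := by
      simp [hu, hba, H.sp.alt, H.sp.symm b y, CharTwo.add_self_eq_zero]
    obtain ⟨c, hc⟩ := H.root u hua
    have hp := H.full_map hc hbfull
    rw [gel_apply H.sp hua, hba, hbu, one_smul, zero_add, mul_one] at hp
    have h2 := H.full_pair hafull hp (by simp [H.sp.alt, hua, hba]) (B y b + c)
    have e : (B y b + c) • a + (b + u + c • a) = y := by
      rw [hu]
      linear_combination (norm := module)
        (B y b + c) • add_self_V (F := F) a + add_self_V (F := F) b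
    rw [e] at h2
    have := H.full_smul h2 k
    rwa [hy, smul_smul, mul_inv_cancel₀ hv, one_smul] at this
  intro v hv
  by_cases hva : B v a = 0
  swap
  · exact hoff v hva
  obtain ⟨z, hza, hzv⟩ : ∃ z, B z a ≠ 0 ∧ B z v ≠ 0 := by
    by_cases hbv : B b v = 0
    · obtain ⟨z, hz⟩ := exists_pair_one H.sp hv
      by_cases hza : B z a = 0
      · exact ⟨z + b, by simp [hza, hba], by simp [hz, hbv]⟩
      · exact ⟨z, hza, by rw [hz]; exact one_ne_zero⟩
    · exact ⟨b, by rw [hba]; exact one_ne_zero, hbv⟩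
  have h := H.full_pair (hoff z hza) (hoff (v + z) (by simp [hva, hza]))
    (by simp [H.sp.alt, H.sp.symm v z, hzv]) 1
  have e : (1 : F) • z + (v + z) = v := by linear_combination (norm := module) add_self_V (F := F) z
  rwa [e] at h

/-- A transvection at `a` gives all transvections. -/
theorem all_of_transvection (hdim : 4 ≤ Module.finrank F V) (hT : ¬ NoT B L a) (v : V) (x : F) :
    gel B v 0 x ∈ L := by
  simp only [NoT, not_forall] at hT
  obtain ⟨α, hα, hα0⟩ := hT
  obtain ⟨s, hs⟩ := exists_sq α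
  have hs0 : s ≠ 0 := fun e => hα0 (by rw [← hs, e, zero_mul])
  have h1 : s • a ∈ Cen B L := (H.cen_iff s).2 (by rwa [hs])
  rcases eq_or_ne v 0 with rfl | hv
  · rw [show gel B (0 : V) 0 x = 1 from LinearEquiv.ext fun w => by simp [gel_zero_apply H.sp]]
    exact one_mem _
  · exact H.full_iff.1 ((H.of_pt ((Pt.self a).smul hs0)).cen_all hdim h1 v hv) x

end Hyp

end Cfsg.Agent.H5.Sp2
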